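import Mathlib
import Cfsg.Prelude.Def_Blocks
import Cfsg.Prelude.Def_Characters
import Cfsg.Agent.H21.BRDefs

/-!
# S0998 (simple groups of order `p * r * q ^ b`): exact statements of the team pieces (helper2)

Plan.  `|G| = p r q^b`, `G` simple non-cyclic.
* `q` odd, `p, r` odd: `|G|` odd; Sylow `p`, `r` self-centralizing (S0904) ⟹ CN-group ⟹ solvable
  (S0183): `StmtOdd`.
* `q` odd, `2 ∈ {p, r}`: `|G| = 2·odd`, impossible (H54 `twoOdd`).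
* `q = 2`, `3 ∈ {p, r}`: S4501 + S0253.
* `q = 2`, `5 ≤ r < p`: impossible.  `e = |N(P):C(P)|`, principal `p`-block:
  the non-exceptional non-principal characters have even degree, the exceptional degree is `r`,
  `r ≡ ε e (mod p)` (`StmtPar`).  `ε = -1`: `r = p - e`, `e = 2^i`, 2-adic valuation of the degree
  equation (`StmtArithB`).  `ε = 1`: `r = e`; the tensor argument gives `t = 2` and a character of
  degree `p + 1` (`StmtParB`, `StmtTypeA`), so `p + 1 ∣ |G|` (`StmtArithA`).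
-/

set_option autoImplicit false

namespace Cfsg.Agent.H2.Prq

open Cfsg Cfsg.Agent.H21.BR
open scoped ComplexConjugate

universe u

/-- ODD: no non-cyclic simple group of odd order `p r q^b`. -/
def StmtOdd : Prop :=
  ∀ (G : Type u) [Group G] [Finite G] [IsSimpleGroup G], ¬ IsCyclic G →
  ∀ (p q r b : ℕ), p.Prime → q.Prime → r.Prime → p ≠ q → p ≠ r → q ≠ r →
    Nat.card G = p * r * q ^ b → Odd (Nat.card G) → False

/-- PAR: parity analysis of the principal `p`-block (raw S4441, any `t`). -/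
def StmtPar : Prop :=
  ∀ (G : Type u) [Group G] [Finite G] [IsSimpleGroup G], ¬ IsCyclic G →
  ∀ (p r b : ℕ) [Fact p.Prime], r.Prime → 5 ≤ r → r < p → Nat.card G = 2 ^ b * p * r →
  ∀ (P : Sylow p G), Nat.card (P : Subgroup G) = p →
  ∀ (e : ℕ), (Subgroup.centralizer ((P : Subgroup G) : Set G)).relIndex
      (Subgroup.normalizer ((P : Subgroup G) : Set G)) = e →
    ∃ ε : ℤ, (ε = 1 ∨ ε = -1) ∧ (r : ℤ) ≡ ε * (e : ℤ) [ZMOD p] ∧
      ∀ D : ℕ, (∀ d : ℕ, 2 ≤ d → d ∣ 2 ^ b * r →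
          ((d : ℤ) ≡ 1 [ZMOD p] ∨ (d : ℤ) ≡ -1 [ZMOD p]) → D ∣ d) →
        (D : ℤ) ∣ ε * (r : ℤ) - 1

/-- ARITHB: the case `ε = -1` (`r = p - e`) is impossible (pure arithmetic). -/
def StmtArithB : Prop :=
  ∀ (p r e b : ℕ), p.Prime → r.Prime → 5 ≤ r → r < p → e ≠ 1 → e ∣ p - 1 → e ∣ 2 ^ b * r →
    (r : ℤ) ≡ -1 * (e : ℤ) [ZMOD p] →
    (∀ D : ℕ, (∀ d : ℕ, 2 ≤ d → d ∣ 2 ^ b * r →
          ((d : ℤ) ≡ 1 [ZMOD p] ∨ (d : ℤ) ≡ -1 [ZMOD p]) → D ∣ d) →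
        (D : ℤ) ∣ -1 * (r : ℤ) - 1) → False

/-- PARB: inside `B0Data`, when `r = e`: the exceptional degree is `e` and the sign is `+1`. -/
def StmtParB : Prop :=
  ∀ (G : Type u) [Group G] [Finite G] (p r b e : ℕ) [Fact p.Prime], r.Prime → 5 ≤ r → r < p →
    Nat.card G = 2 ^ b * p * r →
  ∀ (P : Subgroup G) (X Y : Finset (IrrCharacter G)) (δ : IrrCharacter G → ℤ) (ε : ℤ),
    B0Data p P e X Y δ ε →
  ∀ f0 : ℕ, (∀ θ ∈ Y, charDegree (θ : G → ℂ) = f0) →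
    ε * (f0 : ℤ) = ∑ χ ∈ X, δ χ * (charDegree (χ : G → ℂ) : ℤ) → r = e →
    ε = 1 ∧ f0 = e

/-- TYPEA: generic "type A" (exceptional degree `e`, sign `+1`): `t = 2` and there is a
non-exceptional character of degree `p + 1`. -/
def StmtTypeA : Prop :=
  ∀ (G : Type u) [Group G] [Finite G] (p : ℕ) [Fact p.Prime], p ≠ 2 →
  ∀ (P : Sylow p G), Nat.card (P : Subgroup G) = p →
    Subgroup.centralizer ((P : Subgroup G) : Set G) = (P : Subgroup G) →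
  ∀ (e t : ℕ), e * t = p - 1 → 2 ≤ e → 2 ≤ t →
  ∀ (X Y : Finset (IrrCharacter G)) (δ : IrrCharacter G → ℤ) (ε : ℤ),
    B0Data p (P : Subgroup G) e X Y δ ε → ε = 1 →
    (∀ θ ∈ Y, charDegree (θ : G → ℂ) = e) →
    (∀ x ∈ (P : Subgroup G), x ≠ 1 → ∑ θ ∈ Y, (θ : G → ℂ) x = -(ε : ℂ)) →
    (∀ x ∈ (P : Subgroup G), x ≠ 1 →
      ∑ θ ∈ Y, (θ : G → ℂ) x * conj ((θ : G → ℂ) x) = (p : ℂ) - (e : ℂ)) →
    t = 2 ∧ ∃ χ ∈ plusSet X δ, charDegree (χ : G → ℂ) = p + 1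

/-- ARITHA: `p = 2r + 1` and `p + 1 ∣ 2^b p r` is impossible for `r ≥ 5`. -/
def StmtArithA : Prop :=
  ∀ (p r b : ℕ), p.Prime → r.Prime → 5 ≤ r → 2 * r = p - 1 → p + 1 ∣ 2 ^ b * p * r → False

end Cfsg.Agent.H2.Prq
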