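import Cfsg.Agent.H74.BTDefs
import Cfsg.Agent.H16.BRTypeA
import Cfsg.Agent.H4.RealClasses

/-!
# S0997-B2PROD (helper2, for helper74)

The decomposition of `θ₁ θ₂` in case B2: `θ₁ θ₂ = St + ∑_{ψ ∈ minus} m ψ · ψ` with `St` an
irreducible character of degree `p` outside the principal block.
-/

set_option autoImplicit false
set_option maxHeartbeats 800000

namespace Cfsg.Agent.H2.BT

open Cfsg Cfsg.Agent.H21.BR Cfsg.Agent.H16.BR Cfsg.Agent.H74.BT
open scoped ComplexConjugate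

universe u

theorem b2Prod : Cfsg.Agent.H74.BT.StB2Prod.{u} := by
  intro G _ _ p e _ P X Y δ θ₁ θ₂ hB hS1 hS2
  classical
  have : Fintype G := Fintype.ofFinite G
  have hp : p.Prime := Fact.out
  have hp0 : 0 < p := hp.pos
  have h := hB.b0
  have hP := hB.cardP
  have he := hB.he
  have hpe : p = 2 * e + 1 := by
    have := hp.one_le
    omega
  have he1 : 1 ≤ e := by
    have := hp.two_le
    omega
  have heven : 2 ∣ e := Dvd.dvd.trans (by norm_num) hB.he4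
  obtain ⟨Z, hZ⟩ := exists_out X Y
  have hθ₁Y : θ₁ ∈ Y := (hB.hY θ₁).mpr (Or.inl rfl)
  have hθ₂Y : θ₂ ∈ Y := (hB.hY θ₂).mpr (Or.inr rfl)
  have hpC : (p : ℂ) = 2 * (e : ℂ) + 1 := by
    rw [hpe]
    push_cast
    ring
  -- an element of `P ∖ 1`
  obtain ⟨x₀, hx₀P, hx₀1⟩ : ∃ x₀ ∈ P, x₀ ≠ 1 := by
    by_contra hall
    push Not at hall
    have hbot : P = ⊥ := (Subgroup.eq_bot_iff_forall P).mpr hall
    rw [hbot, Subgroup.card_bot] at hP
    have := hp.two_le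
    omega
  -- decomposition of `θ₁ θ₂`
  obtain ⟨m, hm⟩ := Cfsg.Agent.H4.isCharacter_iff.mp (Cfsg.Agent.H4.isCharacter_mul
    (Cfsg.Agent.H4.isCharacter_of_isIrrCharacter θ₁.2)
    (Cfsg.Agent.H4.isCharacter_of_isIrrCharacter θ₂.2))
  have hstar : ∀ g : G, (θ₁ : G → ℂ) g * (θ₂ : G → ℂ) g =
      ∑ᶠ ψ : IrrCharacter G, (m ψ : ℂ) * (ψ : G → ℂ) g := by
    intro g
    rw [← Cfsg.Agent.H4.finsum_irr_apply, ← hm]
    rfl
  -- the trivial character does not occur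
  have hm1 : m (one G) = 0 := by
    have h1 := Cfsg.Agent.H4.classInner_finsum_irr (fun ψ => (m ψ : ℂ)) (one G)
    rw [← hm] at h1
    have h2 : classInner ((θ₁ : G → ℂ) * (θ₂ : G → ℂ)) (one G).1 =
        classInner θ₁.1 (Cfsg.Agent.H4.irrConj θ₂).1 := by
      unfold classInner
      congr 1
      apply Finset.sum_congr rfl
      intro g _
      show θ₁.1 g * θ₂.1 g * conj (1 : ℂ) = θ₁.1 g * conj (conj (θ₂.1 g))
      rw [map_one, mul_one, Complex.conj_conj]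
    have hne : θ₁ ≠ Cfsg.Agent.H4.irrConj θ₂ := by
      intro heq
      have h3 : (θ₁ : G → ℂ) x₀ = conj ((θ₂ : G → ℂ) x₀) := by
        conv_lhs => rw [heq]
        rfl
      rw [hB.real₂ x₀ hx₀P] at h3
      have h4 := hB.hsum x₀ hx₀P hx₀1
      have h5 := hB.hprod x₀ hx₀P hx₀1
      rw [h3] at h4 h5
      have h6 : (2 * (e : ℂ) + 1) = 0 := by
        linear_combination (-(2 * (θ₂ : G → ℂ) x₀ + 1)) * h4 + 2 * h5
      have h7 : ((2 * e + 1 : ℕ) : ℂ) = 0 := by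
        push_cast
        exact h6
      exact absurd (Nat.cast_eq_zero.mp h7) (by omega)
    rw [h2, Cfsg.Agent.H4.irr_inner_ne hne] at h1
    exact_mod_cast h1.symm
  -- the sums over `P`
  have hw : ∀ θ' : IrrCharacter G, ∃ w : ℕ,
      ∑ᶠ x : ↥P, (θ' : G → ℂ) (x : G) = (p : ℂ) * (w : ℂ) := fun θ' =>
    psum_character_nat P p hp0 hP _ (Cfsg.Agent.H4.isCharacter_of_isIrrCharacter θ'.2)
  choose w hw using hw
  have hpne : (p : ℂ) ≠ 0 := by exact_mod_cast hp0.ne'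
  have hwY : ∀ θ ∈ Y, w θ = 1 := by
    intro θ hθ
    have h1 : ∑ᶠ x : ↥P, (θ : G → ℂ) (x : G) = (p : ℂ) := by
      rcases (hB.hY θ).mp hθ with rfl | rfl
      · exact hS1
      · exact hS2
    rw [hw θ] at h1
    have h2 : (w θ : ℂ) = 1 := by
      have h3 : (p : ℂ) * (w θ : ℂ) = (p : ℂ) * 1 := by rw [h1, mul_one]
      exact mul_left_cancel₀ hpne h3
    exact_mod_cast h2
  have hw_plus : ∀ χ ∈ plusSet X δ, p * w χ = charDegree (χ : G → ℂ) + (p - 1) := by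
    intro χ hχ
    have hχ' := mem_plusSet.mp hχ
    have h1 := psum_const P p hp0 hP (χ : G → ℂ) 1 (fun x hx hx1 => by
      rw [h.val_X χ hχ'.1 x hx hx1, hχ'.2.2]; norm_num)
    rw [hw χ, irr_one_cast] at h1
    have h2 : ((p * w χ : ℕ) : ℂ) = ((charDegree (χ : G → ℂ) + (p - 1) : ℕ) : ℂ) := by
      push_cast [Nat.cast_sub hp.one_le]
      rw [h1]
      ring
    exact Nat.cast_injective h2
  have hw_minus : ∀ χ ∈ minusSet X δ, p * w χ + (p - 1) = charDegree (χ : G → ℂ) := by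
    intro χ hχ
    have hχ' := mem_minusSet.mp hχ
    have h1 := psum_const P p hp0 hP (χ : G → ℂ) (-1) (fun x hx hx1 => by
      rw [h.val_X χ hχ'.1 x hx hx1, hχ'.2]; norm_num)
    rw [hw χ, irr_one_cast] at h1
    have h2 : ((p * w χ + (p - 1) : ℕ) : ℂ) = ((charDegree (χ : G → ℂ) : ℕ) : ℂ) := by
      push_cast [Nat.cast_sub hp.one_le]
      rw [h1]
      ring
    exact Nat.cast_injective h2
  have hw_Z : ∀ ψ ∈ Z, p * w ψ = charDegree (ψ : G → ℂ) := by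
    intro ψ hψ
    have h1 := psum_const P p hp0 hP (ψ : G → ℂ) 0 (fun x hx hx1 =>
      h.out_van ψ ((hZ ψ).mp hψ).1 ((hZ ψ).mp hψ).2 x hx hx1)
    rw [hw ψ, irr_one_cast] at h1
    have h2 : ((p * w ψ : ℕ) : ℂ) = ((charDegree (ψ : G → ℂ) : ℕ) : ℂ) := by
      push_cast
      rw [h1]
      ring
    exact Nat.cast_injective h2
  -- `w ≥ 2` on plus
  have hw2_plus : ∀ χ ∈ plusSet X δ, 2 ≤ w χ := by
    intro χ hχ
    have h1 := hw_plus χ hχ
    have hχ' := mem_plusSet.mp hχ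
    have h2 := h.two_le_X χ hχ'.1 hχ'.2.1
    by_contra hlt
    have h4 : p * w χ ≤ p * 1 := Nat.mul_le_mul_left p (by omega)
    have h8 : 1 ≤ p := hp.one_le
    omega
  -- `w ≠ 1` on minus
  have hw_minus_ne : ∀ χ ∈ minusSet X δ, w χ ≠ 1 := by
    intro χ hχ h1
    have h2 := hw_minus χ hχ
    rw [h1] at h2
    have hχ' := mem_minusSet.mp hχ
    have hne : χ ≠ one G := by
      rintro rfl
      rw [h.δ_one] at hχ'
      omega
    have h3 := hB.even χ hχ'.1 hne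
    have h8 : 1 ≤ p := hp.one_le
    omega
  -- `w ≥ 1` on `Z`
  have hw_Z_pos : ∀ ψ ∈ Z, 1 ≤ w ψ := by
    intro ψ hψ
    have h1 := hw_Z ψ hψ
    have h2 := irr_deg_pos ψ
    by_contra hlt
    have h3 : w ψ = 0 := by omega
    rw [h3] at h1
    omega
  -- the sum of `θ₁ θ₂` over `P`
  have hsumP : ∑ᶠ x : ↥P, (θ₁ : G → ℂ) (x : G) * (θ₂ : G → ℂ) (x : G) = (p : ℂ) := by
    have h1 := psum_const P p hp0 hP (fun g => (θ₁ : G → ℂ) g * (θ₂ : G → ℂ) g)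
      (-(e : ℂ) / 2) (fun x hx hx1 => by
        have := hB.hprod x hx hx1
        linear_combination this / 2)
    rw [h1]
    show (θ₁ : G → ℂ) 1 * (θ₂ : G → ℂ) 1 + ((p : ℂ) - 1) * (-(e : ℂ) / 2) = (p : ℂ)
    rw [irr_one_cast, irr_one_cast, hB.deg₁, hB.deg₂, hpC]
    push_cast
    ring
  -- expansion of the sum
  have hexp : ∑ᶠ x : ↥P, (θ₁ : G → ℂ) (x : G) * (θ₂ : G → ℂ) (x : G) =
      ((p * (∑ χ ∈ plusSet X δ, m χ * w χ + ∑ χ ∈ minusSet X δ, m χ * w χ +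
        ∑ θ ∈ Y, m θ + ∑ ψ ∈ Z, m ψ * w ψ) : ℕ) : ℂ) := by
    have h1 : (fun x : ↥P => (θ₁ : G → ℂ) (x : G) * (θ₂ : G → ℂ) (x : G)) =
        fun x : ↥P => ∑ᶠ ψ : IrrCharacter G, (m ψ : ℂ) * (ψ : G → ℂ) (x : G) :=
      funext (fun x => hstar x)
    rw [h1, psum_swap, sum_split h Z hZ, hm1]
    have hpl : ∑ χ ∈ plusSet X δ, (m χ : ℂ) * ∑ᶠ x : ↥P, (χ : G → ℂ) (x : G) =
        (p : ℂ) * ((∑ χ ∈ plusSet X δ, m χ * w χ : ℕ) : ℂ) := by
      rw [Nat.cast_sum, Finset.mul_sum]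
      apply Finset.sum_congr rfl
      intro χ _
      rw [hw χ, Nat.cast_mul]
      ring
    have hmi : ∑ χ ∈ minusSet X δ, (m χ : ℂ) * ∑ᶠ x : ↥P, (χ : G → ℂ) (x : G) =
        (p : ℂ) * ((∑ χ ∈ minusSet X δ, m χ * w χ : ℕ) : ℂ) := by
      rw [Nat.cast_sum, Finset.mul_sum]
      apply Finset.sum_congr rfl
      intro χ _
      rw [hw χ, Nat.cast_mul]
      ring
    have hy : ∑ θ ∈ Y, (m θ : ℂ) * ∑ᶠ x : ↥P, (θ : G → ℂ) (x : G) =
        (p : ℂ) * ((∑ θ ∈ Y, m θ : ℕ) : ℂ) := by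
      rw [Nat.cast_sum, Finset.mul_sum]
      apply Finset.sum_congr rfl
      intro θ hθ
      rw [hw θ, hwY θ hθ]
      push_cast
      ring
    have hz : ∑ ψ ∈ Z, (m ψ : ℂ) * ∑ᶠ x : ↥P, (ψ : G → ℂ) (x : G) =
        (p : ℂ) * ((∑ ψ ∈ Z, m ψ * w ψ : ℕ) : ℂ) := by
      rw [Nat.cast_sum, Finset.mul_sum]
      apply Finset.sum_congr rfl
      intro ψ _
      rw [hw ψ, Nat.cast_mul]
      ring
    rw [hpl, hmi, hy, hz]
    push_cast
    ring
  -- the key equation `A + B + C + D = 1`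
  obtain ⟨A, hA⟩ : ∃ A : ℕ, A = ∑ χ ∈ plusSet X δ, m χ * w χ := ⟨_, rfl⟩
  obtain ⟨B, hBdef⟩ : ∃ B : ℕ, B = ∑ χ ∈ minusSet X δ, m χ * w χ := ⟨_, rfl⟩
  obtain ⟨C, hC⟩ : ∃ C : ℕ, C = ∑ θ ∈ Y, m θ := ⟨_, rfl⟩
  obtain ⟨D, hD⟩ : ∃ D : ℕ, D = ∑ ψ ∈ Z, m ψ * w ψ := ⟨_, rfl⟩
  have hkey : A + B + C + D = 1 := by
    rw [hsumP, ← hA, ← hBdef, ← hC, ← hD] at hexp
    have h1 : p = p * (A + B + C + D) := by exact_mod_cast hexp
    have h2 : p * (A + B + C + D) = p * 1 := by omega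
    exact Nat.eq_of_mul_eq_mul_left hp0 h2
  -- consequences
  have hm_plus : ∀ χ ∈ plusSet X δ, m χ = 0 := by
    intro χ hχ
    by_contra hne
    have h1 : 2 ≤ m χ * w χ := by
      have h2 := hw2_plus χ hχ
      have h3 : 1 ≤ m χ := Nat.one_le_iff_ne_zero.mpr hne
      calc 2 = 1 * 2 := by norm_num
        _ ≤ m χ * w χ := Nat.mul_le_mul h3 h2
    have h4 : m χ * w χ ≤ A := by
      rw [hA]
      exact Finset.single_le_sum (f := fun χ => m χ * w χ) (fun _ _ => Nat.zero_le _) hχ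
    omega
  have hm_minus : ∀ χ ∈ minusSet X δ, m χ ≠ 0 → w χ = 0 := by
    intro χ hχ hne
    by_contra hw0
    have hw2 : 2 ≤ w χ := by
      have := hw_minus_ne χ hχ
      omega
    have h1 : 2 ≤ m χ * w χ := by
      have h3 : 1 ≤ m χ := Nat.one_le_iff_ne_zero.mpr hne
      calc 2 = 1 * 2 := by norm_num
        _ ≤ m χ * w χ := Nat.mul_le_mul h3 hw2
    have h4 : m χ * w χ ≤ B := by
      rw [hBdef]
      exact Finset.single_le_sum (f := fun χ => m χ * w χ) (fun _ _ => Nat.zero_le _) hχ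
    omega
  have hdeg_minus : ∀ χ ∈ minusSet X δ, m χ ≠ 0 → charDegree (χ : G → ℂ) = p - 1 := by
    intro χ hχ hne
    have h1 := hw_minus χ hχ
    rw [hm_minus χ hχ hne] at h1
    omega
  have hA0 : A = 0 := by
    rw [hA]
    apply Finset.sum_eq_zero
    intro χ hχ
    rw [hm_plus χ hχ, zero_mul]
  have hB0 : B = 0 := by
    rw [hBdef]
    apply Finset.sum_eq_zero
    intro χ hχ
    by_cases hne : m χ = 0
    · rw [hne, zero_mul]
    · rw [hm_minus χ hχ hne, mul_zero]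
  -- the degree equation
  obtain ⟨M, hM⟩ : ∃ M : ℕ, M = ∑ χ ∈ minusSet X δ, m χ := ⟨_, rfl⟩
  have hdeg : (e + 1) * (e + 1) = M * (p - 1) + C * (e + 1) +
      ∑ ψ ∈ Z, m ψ * charDegree (ψ : G → ℂ) := by
    have h1 := hstar 1
    rw [sum_split h Z hZ, irr_one_cast, irr_one_cast, hB.deg₁, hB.deg₂, hm1] at h1
    have hpl : ∑ χ ∈ plusSet X δ, (m χ : ℂ) * (χ : G → ℂ) 1 = 0 := by
      apply Finset.sum_eq_zero
      intro χ hχ
      rw [hm_plus χ hχ]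
      simp
    have hmi : ∑ χ ∈ minusSet X δ, (m χ : ℂ) * (χ : G → ℂ) 1 = ((M * (p - 1) : ℕ) : ℂ) := by
      rw [hM, Finset.sum_mul, Nat.cast_sum]
      apply Finset.sum_congr rfl
      intro χ hχ
      rw [irr_one_cast, Nat.cast_mul]
      by_cases hne : m χ = 0
      · rw [hne]; simp
      · rw [hdeg_minus χ hχ hne]
    have hy : ∑ θ ∈ Y, (m θ : ℂ) * (θ : G → ℂ) 1 = ((C * (e + 1) : ℕ) : ℂ) := by
      rw [hC, Finset.sum_mul, Nat.cast_sum]
      apply Finset.sum_congr rfl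
      intro θ hθ
      rw [irr_one_cast, Nat.cast_mul]
      rcases (hB.hY θ).mp hθ with rfl | rfl
      · rw [hB.deg₁]
      · rw [hB.deg₂]
    have hz : ∑ ψ ∈ Z, (m ψ : ℂ) * (ψ : G → ℂ) 1 =
        ((∑ ψ ∈ Z, m ψ * charDegree (ψ : G → ℂ) : ℕ) : ℂ) := by
      rw [Nat.cast_sum]
      apply Finset.sum_congr rfl
      intro ψ _
      rw [irr_one_cast, Nat.cast_mul]
    rw [hpl, hmi, hy, hz] at h1
    have h2 : (((e + 1) * (e + 1) : ℕ) : ℂ) = ((M * (p - 1) + C * (e + 1) +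
        ∑ ψ ∈ Z, m ψ * charDegree (ψ : G → ℂ) : ℕ) : ℂ) := by
      push_cast
      push_cast at h1
      rw [h1]
      ring
    exact Nat.cast_injective h2
  have hCD : C + D = 1 := by omega
  -- case distinction
  rcases Nat.eq_zero_or_pos D with hD0 | hDpos
  · -- `D = 0`, `C = 1`: impossible by parity
    exfalso
    have hC1 : C = 1 := by omega
    have hmZ : ∀ ψ ∈ Z, m ψ = 0 := by
      intro ψ hψ
      have h1 : m ψ * w ψ = 0 := by
        have h2 : m ψ * w ψ ≤ D := by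
          rw [hD]
          exact Finset.single_le_sum (f := fun ψ => m ψ * w ψ) (fun _ _ => Nat.zero_le _) hψ
        omega
      rcases Nat.mul_eq_zero.mp h1 with h3 | h3
      · exact h3
      · have := hw_Z_pos ψ hψ
        omega
    have hz0 : ∑ ψ ∈ Z, m ψ * charDegree (ψ : G → ℂ) = 0 := by
      apply Finset.sum_eq_zero
      intro ψ hψ
      rw [hmZ ψ hψ, zero_mul]
    rw [hz0, hC1] at hdeg
    have hp1 : p - 1 = 2 * e := by omega
    rw [hp1] at hdeg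
    -- (e+1)^2 = M * 2e + (e+1)  ⟹  e(e+1) = 2eM ⟹ e + 1 = 2M
    have h5 : e * (e + 1) = e * (2 * M) := by nlinarith
    have h6 : e + 1 = 2 * M := Nat.eq_of_mul_eq_mul_left (by omega) h5
    obtain ⟨k, hk⟩ := heven
    omega
  · -- `D = 1`, `C = 0`
    have hD1 : D = 1 := by omega
    have hC0 : C = 0 := by omega
    have hmY : ∀ θ ∈ Y, m θ = 0 := by
      intro θ hθ
      have h2 : m θ ≤ C := by
        rw [hC]
        exact Finset.single_le_sum (f := fun θ => m θ) (fun _ _ => Nat.zero_le _) hθ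
      omega
    -- the unique constituent in `Z`
    obtain ⟨ψ₀, hψ₀Z, hψ₀⟩ : ∃ ψ₀ ∈ Z, m ψ₀ * w ψ₀ ≠ 0 := by
      by_contra hall
      push Not at hall
      have : D = 0 := by
        rw [hD]
        exact Finset.sum_eq_zero hall
      omega
    have hsplit : D = m ψ₀ * w ψ₀ + ∑ ψ ∈ Z.erase ψ₀, m ψ * w ψ := by
      rw [hD, Finset.add_sum_erase Z (fun ψ => m ψ * w ψ) hψ₀Z]
    have h1 : m ψ₀ * w ψ₀ = 1 := by omega
    have hrest : ∑ ψ ∈ Z.erase ψ₀, m ψ * w ψ = 0 := by omega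
    have hm0 : m ψ₀ = 1 := Nat.eq_one_of_mul_eq_one_right h1
    have hw0 : w ψ₀ = 1 := Nat.eq_one_of_mul_eq_one_left h1
    have hmZ : ∀ ψ ∈ Z, ψ ≠ ψ₀ → m ψ = 0 := by
      intro ψ hψ hne
      have h2 := (Finset.sum_eq_zero_iff.mp hrest) ψ (Finset.mem_erase.mpr ⟨hne, hψ⟩)
      rcases Nat.mul_eq_zero.mp h2 with h3 | h3
      · exact h3
      · have := hw_Z_pos ψ hψ
        omega
    have hdegψ₀ : charDegree (ψ₀ : G → ℂ) = p := by
      have := hw_Z ψ₀ hψ₀Z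
      rw [hw0] at this
      omega
    refine ⟨ψ₀, ((hZ ψ₀).mp hψ₀Z).1, ((hZ ψ₀).mp hψ₀Z).2, hdegψ₀, m, ?_, hdeg_minus, ?_⟩
    · intro g
      rw [hstar g, sum_split h Z hZ, hm1]
      have hpl : ∑ χ ∈ plusSet X δ, (m χ : ℂ) * (χ : G → ℂ) g = 0 := by
        apply Finset.sum_eq_zero
        intro χ hχ
        rw [hm_plus χ hχ]
        simp
      have hy : ∑ θ ∈ Y, (m θ : ℂ) * (θ : G → ℂ) g = 0 := by
        apply Finset.sum_eq_zero
        intro θ hθ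
        rw [hmY θ hθ]
        simp
      have hz : ∑ ψ ∈ Z, (m ψ : ℂ) * (ψ : G → ℂ) g = (ψ₀ : G → ℂ) g := by
        rw [Finset.sum_eq_single ψ₀]
        · rw [hm0]; simp
        · intro ψ hψ hne
          rw [hmZ ψ hψ hne]
          simp
        · intro hnot
          exact absurd hψ₀Z hnot
      rw [hpl, hy, hz]
      push_cast
      ring
    · -- `2 M = e`
      have hz1 : ∑ ψ ∈ Z, m ψ * charDegree (ψ : G → ℂ) = p := by
        rw [Finset.sum_eq_single ψ₀]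
        · rw [hm0, hdegψ₀, one_mul]
        · intro ψ hψ hne
          rw [hmZ ψ hψ hne, zero_mul]
        · intro hnot
          exact absurd hψ₀Z hnot
      rw [hz1, hC0] at hdeg
      have hp1 : p - 1 = 2 * e := by omega
      rw [hp1] at hdeg
      rw [← hM]
      -- (e+1)^2 = M * 2e + 0 + (2e+1) ⟹ e^2 = 2eM
      have h5 : e * e = e * (2 * M) := by
        subst hpe
        nlinarith
      have h6 : e = 2 * M := Nat.eq_of_mul_eq_mul_left (by omega) h5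
      omega

example : Cfsg.Agent.H74.BT.StB2Prod.{u} = (∀ (G : Type u) [Group G] [Finite G] (p e : ℕ) [Fact p.Prime] (P : Subgroup G)
    (X Y : Finset (IrrCharacter G)) (δ : IrrCharacter G → ℤ) (θ₁ θ₂ : IrrCharacter G),
    B2Base p e P X Y δ θ₁ θ₂ →
    ∑ᶠ x : ↥P, (θ₁ : G → ℂ) (x : G) = (p : ℂ) → ∑ᶠ x : ↥P, (θ₂ : G → ℂ) (x : G) = (p : ℂ) →
    ∃ St : IrrCharacter G, St ∉ X ∧ St ∉ Y ∧ charDegree (St : G → ℂ) = p ∧
      ∃ m : IrrCharacter G → ℕ,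
        (∀ g : G, (θ₁ : G → ℂ) g * (θ₂ : G → ℂ) g =
          (St : G → ℂ) g + ∑ ψ ∈ minusSet X δ, (m ψ : ℂ) * (ψ : G → ℂ) g) ∧
        (∀ ψ ∈ minusSet X δ, m ψ ≠ 0 → charDegree (ψ : G → ℂ) = p - 1) ∧
        2 * ∑ ψ ∈ minusSet X δ, m ψ = e) := rfl

end Cfsg.Agent.H2.BT
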