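import Mathlib
import Cfsg.Agent.H2.BrDefs
import Cfsg.Agent.H78.Klein7
import Cfsg.Agent.S4479
import Cfsg.Agent.H4.PSection2

/-!
# S4501 (helper2): piece KLEIN, glue from helper78's Klein four library and S4479
-/

set_option autoImplicit false
set_option linter.style.haveILetI false

namespace Cfsg.Agent.H2.Br

open Cfsg Cfsg.Agent.H78.Klein

universe u

theorem klein : StmtKlein.{u} := by
  intro G _ _ _ hna g₀ hg₀ hG J t hJ ht hJt hcomm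
  classical
  haveI : Fact (Nat.Prime 2) := ⟨Nat.prime_two⟩
  letI : Fintype G := Fintype.ofFinite G
  -- the standing hypotheses
  have h : Hyp G g₀ := by
    refine ⟨hg₀, hG, ?_⟩
    rintro ⟨N, hN, hNc⟩
    rcases hN.eq_bot_or_eq_top with rfl | rfl
    · rw [Subgroup.card_bot] at hNc
      have h4 : Nat.card G = 2 ^ 2 := by rw [hG, ← hNc]; norm_num
      obtain ⟨x, y, hxy⟩ := hna
      have hc := IsPGroup.isMulCommutative_of_card_eq_prime_sq (p := 2) h4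
      exact hxy (hc.is_comm.comm x y)
    · rw [Subgroup.card_top, hG] at hNc
      have : g₀ = 0 := by omega
      rw [this] at hG
      have := Nat.card_pos (α := G)
      omega
  obtain ⟨M, hM⟩ := Cfsg.Agent.H4.exists_isPModular Nat.prime_two
  obtain ⟨χ₁, χ₂, χ₃, ε₁, ε₂, ε₃, D₀⟩ := exists_KData h hM J hJ
  obtain ⟨ζ₂, ζ₃, ζ₄, ε, D⟩ := D₀.exists_normalized
  -- a Sylow subgroup containing `J`
  have hJ2 := sq_of_orderOf_eq_two hJ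
  have hz1 : IsPGroup 2 (Subgroup.zpowers J) :=
    isPGroup_zpowers J 1 (by rw [pow_one, pow_two]; exact hJ2)
  obtain ⟨P, hP⟩ := hz1.exists_le_sylow
  have hJP : J ∈ (P : Subgroup G) := hP (Subgroup.mem_zpowers J)
  have hPc := sylow_card g₀ h.1 h.2.1 P
  have hconj : ∀ x : (P : Subgroup G), x ≠ 1 → IsConj J (x : G) := by
    intro x hx
    have hx2 : orderOf (x : G) = 2 :=
      orderOf_eq_two_of_mem_sylow h P x x.2 (fun hh => hx (Subtype.ext hh))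
    obtain ⟨g, hg⟩ := conj_of_involutions h J x hJ hx2
    exact isConj_iff.mpr ⟨g, hg⟩
  have hv₁ : (ζ₂ : G → ℂ) J = ((1 : ℤ) : ℂ) := D.hv₁
  have hv₂ : (ζ₃ : G → ℂ) J = ((ε : ℤ) : ℂ) := D.hv₂
  have hv₃ : (ζ₄ : G → ℂ) J = ((-1 : ℤ) : ℂ) := D.hv₃
  have m2 := degree_mod_four (P : Subgroup G) hPc J hconj ζ₂ 1 hv₁
  have m3 := degree_mod_four (P : Subgroup G) hPc J hconj ζ₃ ε hv₂
  have m4 := degree_mod_four (P : Subgroup G) hPc J hconj ζ₄ (-1) hv₃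
  obtain ⟨A, hA⟩ : ∃ A : ℕ, A = charDegree (ζ₂ : G → ℂ) := ⟨_, rfl⟩
  obtain ⟨B, hB⟩ : ∃ B : ℕ, B = charDegree (ζ₃ : G → ℂ) := ⟨_, rfl⟩
  obtain ⟨C, hC⟩ : ∃ C : ℕ, C = charDegree (ζ₄ : G → ℂ) := ⟨_, rfl⟩
  have hApos : 0 < A := by rw [hA]; exact (Cfsg.Agent.H81.irr_charDegree ζ₂).2
  have hBpos : 0 < B := by rw [hB]; exact (Cfsg.Agent.H81.irr_charDegree ζ₃).2
  have hCpos : 0 < C := by rw [hC]; exact (Cfsg.Agent.H81.irr_charDegree ζ₄).2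
  rw [← hA] at m2
  rw [← hB] at m3
  rw [← hC] at m4
  have hdeg := D.degree_eq
  rw [(Cfsg.Agent.H81.irr_charDegree ζ₂).1, (Cfsg.Agent.H81.irr_charDegree ζ₃).1,
    (Cfsg.Agent.H81.irr_charDegree ζ₄).1, ← hA, ← hB, ← hC] at hdeg
  have hdegZ : (1 : ℤ) + (A : ℤ) + ε * (B : ℤ) - (C : ℤ) = 0 := by
    have : ((1 : ℤ) : ℂ) + ((1 : ℤ) : ℂ) * (A : ℂ) + (ε : ℂ) * (B : ℂ) + ((-1 : ℤ) : ℂ) * (C : ℂ)
        = 0 := by exact_mod_cast hdeg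
    have h2 : (((1 : ℤ) + (A : ℤ) + ε * (B : ℤ) - (C : ℤ) : ℤ) : ℂ) = 0 := by
      push_cast
      push_cast at this
      linear_combination this
    exact_mod_cast h2
  -- the order formula
  have hf := Cfsg.Agent.S4479.result M D.hM g₀ h.1 h.2.1 h.2.2 P J hJP D.hJ ζ₂ ζ₃ ζ₄ 1 ε (-1)
    D.hB ⟨D.hd1, D.hd2, D.hd3, D.h12, D.h13, D.h23⟩ ⟨D.hε₁, D.hε₂, D.hε₃⟩
    ⟨D.hv₁, D.hv₂, D.hv₃⟩
  rw [← hA, ← hB, ← hC] at hf
  obtain ⟨K, hK1, hK2⟩ := exists_K_pair h P J t hJ ht hcomm hJt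
  obtain ⟨cJ, hcJ⟩ : ∃ c : ℕ, c = Nat.card (Subgroup.centralizer ({J} : Set G)) := ⟨_, rfl⟩
  obtain ⟨cP, hcP⟩ : ∃ c : ℕ, c = Nat.card (Subgroup.centralizer ((P : Subgroup G) : Set G)) :=
    ⟨_, rfl⟩
  rw [← hcJ, ← hcP] at hf
  have hcPpos : 0 < cP := by rw [hcP]; exact Nat.card_pos
  have hε := D.hε₂
  -- denominators
  have hB3 : ε = -1 → 3 ≤ B := by
    rintro rfl
    obtain ⟨k, hk⟩ := m3
    omega
  have hC3 : 3 ≤ C := by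
    obtain ⟨k, hk⟩ := m4
    omega
  have hd1 : ((A : ℚ) + ((1 : ℤ) : ℚ)) ≠ 0 := by
    have : (0 : ℚ) < (A : ℚ) := by exact_mod_cast hApos
    push_cast; linarith
  have hd2 : ((B : ℚ) + (ε : ℚ)) ≠ 0 := by
    rcases hε with rfl | rfl
    · have : (0 : ℚ) < (B : ℚ) := by exact_mod_cast hBpos
      push_cast; linarith
    · have : (3 : ℚ) ≤ (B : ℚ) := by exact_mod_cast hB3 rfl
      push_cast; linarith
  have hd3 : ((C : ℚ) + ((-1 : ℤ) : ℚ)) ≠ 0 := by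
    have : (3 : ℚ) ≤ (C : ℚ) := by exact_mod_cast hC3
    push_cast; linarith
  have hcPq : (cP : ℚ) ≠ 0 := by exact_mod_cast hcPpos.ne'
  have hmain : (Nat.card G : ℚ) * (((A : ℚ) + ((1 : ℤ) : ℚ)) * ((B : ℚ) + (ε : ℚ)) *
      ((C : ℚ) + ((-1 : ℤ) : ℚ))) * (cP : ℚ) ^ 2 = 8 * ((A : ℚ) * (B : ℚ) * (C : ℚ)) * (cJ : ℚ) ^ 3 := by
    rw [hf]
    field_simp
  have hmainZ : (Nat.card G : ℤ) * (((A : ℤ) + 1) * ((B : ℤ) + ε) * ((C : ℤ) - 1)) * (cP : ℤ) ^ 2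
      = 8 * ((A : ℤ) * (B : ℤ) * (C : ℤ)) * (cJ : ℤ) ^ 3 := by
    have : (((Nat.card G : ℤ) * (((A : ℤ) + 1) * ((B : ℤ) + ε) * ((C : ℤ) - 1)) * (cP : ℤ) ^ 2 : ℤ) : ℚ)
        = ((8 * ((A : ℤ) * (B : ℤ) * (C : ℤ)) * (cJ : ℤ) ^ 3 : ℤ) : ℚ) := by
      push_cast
      push_cast at hmain
      linear_combination hmain
    exact_mod_cast this
  refine ⟨ζ₂, ζ₃, ζ₄, ε, cP, hε, D.hd1, D.hd2, D.hd3, ?_, ?_, ?_, ?_, ?_, ?_, ?_, hcPpos, ?_, ?_⟩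
  · rw [hv₁]; norm_num
  · exact hv₂
  · rw [hv₃]; norm_num
  · rw [← hA]
    obtain ⟨k, hk⟩ := m2
    exact ⟨k - 1, by omega⟩
  · rw [← hB]
    obtain ⟨k, hk⟩ := m3
    exact ⟨k - ε, by linarith⟩
  · rw [← hC]
    obtain ⟨k, hk⟩ := m4
    exact ⟨k + 1, by omega⟩
  · rw [← hA, ← hB, ← hC]; exact hdegZ
  · by_cases hK : Nat.card K = 1
    · left
      rw [hcP, hK2, hK]
    · right
      have hnt : ∃ y ∈ K, y ≠ (1 : G) := by
        by_contra hcon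
        push Not at hcon
        apply hK
        have : K = ⊥ := by
          rw [Subgroup.eq_bot_iff_forall]
          exact hcon
        rw [this, Subgroup.card_bot]
      obtain ⟨y, hyK, hy1⟩ := hnt
      obtain ⟨ho, h1, h2⟩ := (hK1 y).mp hyK
      exact ⟨y, hy1, ho, h1, h2⟩
  · rw [← hA, ← hB, ← hC, ← hcJ]; exact hmainZ

end Cfsg.Agent.H2.Br
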