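import Cfsg.Agent.H2.CensusStmts

/-!
# Census `3641 .. 6232` (helper2): the Brauer degree search finds nothing for 27 orders
-/

set_option autoImplicit false
set_option maxRecDepth 100000

namespace Cfsg.Agent.H2.Census

theorem brauerB_3696 : brauerB 3696 11 = false := by decide +kernel

theorem brauerB_3780 : brauerB 3780 5 = false := by decide +kernel

theorem brauerB_3960 : brauerB 3960 11 = false := by decide +kernel

theorem brauerB_4200 : brauerB 4200 7 = false := by decide +kernel

theorem brauerB_4212 : brauerB 4212 13 = false := by decide +kernel

theorem brauerB_4284 : brauerB 4284 17 = false := by decide +kernel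

theorem brauerB_4368 : brauerB 4368 7 = false := by decide +kernel

theorem brauerB_4560 : brauerB 4560 19 = false := by decide +kernel

theorem brauerB_4680 : brauerB 4680 13 = false := by decide +kernel

theorem brauerB_4725 : brauerB 4725 7 = false := by decide +kernel

theorem brauerB_4760 : brauerB 4760 5 = false := by decide +kernel

theorem brauerB_4896 : brauerB 4896 17 = false := by decide +kernel

theorem brauerB_4960 : brauerB 4960 31 = false := by decide +kernel

theorem brauerB_5104 : brauerB 5104 11 = false := by decide +kernel

theorem brauerB_5148 : brauerB 5148 11 = false := by decide +kernel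

theorem brauerB_5220 : brauerB 5220 29 = false := by decide +kernel

theorem brauerB_5280 : brauerB 5280 11 = false := by decide +kernel

theorem brauerB_5320 : brauerB 5320 19 = false := by decide +kernel

theorem brauerB_5520 : brauerB 5520 23 = false := by decide +kernel

theorem brauerB_5544 : brauerB 5544 11 = false := by decide +kernel

theorem brauerB_5600 : brauerB 5600 7 = false := by decide +kernel

theorem brauerB_5700 : brauerB 5700 19 = false := by decide +kernel

theorem brauerB_5724 : brauerB 5724 53 = false := by decide +kernel

theorem brauerB_5880 : brauerB 5880 5 = false := by decide +kernel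

theorem brauerB_5940 : brauerB 5940 11 = false := by decide +kernel

theorem brauerB_6120 : brauerB 6120 17 = false := by decide +kernel

theorem brauerB_6160 : brauerB 6160 7 = false := by decide +kernel

theorem brauerB_list : ∀ x ∈ brauerList, brauerB x.1 x.2 = false := by
  intro x hx
  simp only [brauerList, List.mem_cons, List.not_mem_nil, or_false] at hx
  rcases hx with rfl | rfl | rfl | rfl | rfl | rfl | rfl | rfl | rfl | rfl | rfl | rfl | rfl | rfl | rfl | rfl | rfl | rfl | rfl | rfl | rfl | rfl | rfl | rfl | rfl | rfl | rfl
  · exact brauerB_3696
  · exact brauerB_3780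
  · exact brauerB_3960
  · exact brauerB_4200
  · exact brauerB_4212
  · exact brauerB_4284
  · exact brauerB_4368
  · exact brauerB_4560
  · exact brauerB_4680
  · exact brauerB_4725
  · exact brauerB_4760
  · exact brauerB_4896
  · exact brauerB_4960
  · exact brauerB_5104
  · exact brauerB_5148
  · exact brauerB_5220
  · exact brauerB_5280
  · exact brauerB_5320
  · exact brauerB_5520
  · exact brauerB_5544
  · exact brauerB_5600
  · exact brauerB_5700
  · exact brauerB_5724
  · exact brauerB_5880
  · exact brauerB_5940
  · exact brauerB_6120
  · exact brauerB_6160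

theorem brauerList_prime : ∀ x ∈ brauerList, x.2.Prime ∧ x.2 ≠ 2 ∧ x.2 ∣ x.1 ∧ ¬ x.2 * x.2 ∣ x.1 := by
  intro x hx
  simp only [brauerList, List.mem_cons, List.not_mem_nil, or_false] at hx
  rcases hx with rfl | rfl | rfl | rfl | rfl | rfl | rfl | rfl | rfl | rfl | rfl | rfl | rfl | rfl | rfl | rfl | rfl | rfl | rfl | rfl | rfl | rfl | rfl | rfl | rfl | rfl | rfl <;>
    refine ⟨by norm_num, by norm_num, by norm_num, by norm_num⟩

end Cfsg.Agent.H2.Census
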