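import Mathlib

/-!
# Census of simple group orders in `3641 .. 6232` (helper2): arithmetic definitions

* `BrauerData N p IsDeg`: the arithmetic shadow of Brauer's theorem on the principal `p`-block of a
  simple group of order `N` whose Sylow `p`-subgroups have order `p`.
* `brauerB N p`: a boolean search for such data.
-/

set_option autoImplicit false

namespace Cfsg.Agent.H2.Census

/-- The sign attached to a degree `D` prime to `p` with `D ≡ ±1 (mod p)`. -/
def sgn (p D : ℕ) : ℤ := if D % p = 1 then 1 else -1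

/-- Arithmetic data coming from the principal `p`-block (Sylow `p`-subgroup `P` of order `p`):
`n = |Syl_p|`, `|C(P)| = p k`, `|N(P) : C(P)| = e`, `c D` = number of the `e - 1` distinguished
non-exceptional characters of degree `D`, `d₀` the degree of the `(p-1)/e` exceptional characters,
`IsDeg D` = "some irreducible character has degree `D`". -/
def BrauerData (N p : ℕ) (IsDeg : ℕ → Prop) : Prop :=
  ∃ (n k e d₀ : ℕ) (ε : ℤ) (c : ℕ → ℕ),
    n * (p * (k * e)) = N ∧ n % p = 1 ∧ N ∣ n.factorial ∧ e ∣ p - 1 ∧ 2 ≤ e ∧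
    (ε = 1 ∨ ε = -1) ∧
    3 ≤ d₀ ∧ d₀ ∣ N ∧ (d₀ : ℤ) % (p : ℤ) = (ε * (e : ℤ)) % (p : ℤ) ∧ (k ≠ 1 → 2 * p ≤ d₀) ∧
    IsDeg d₀ ∧
    (∀ D, c D ≠ 0 → 3 ≤ D ∧ D ∣ N ∧ (D % p = 1 ∨ D % p = p - 1) ∧ (k ≠ 1 → 2 * p ≤ D) ∧
      IsDeg D) ∧
    ∑ D ∈ Finset.range (N + 1), c D = e - 1 ∧
    1 + ∑ D ∈ Finset.range (N + 1), sgn p D * ((c D : ℤ) * (D : ℤ)) = ε * (d₀ : ℤ) ∧
    1 + ∑ D ∈ Finset.range (N + 1), c D * (D * D) + (p - 1) / e * (d₀ * d₀) ≤ N ∧
    (k = 1 → ∀ D, IsDeg D → ¬ p ∣ D → D = 1 ∨ D = d₀ ∨ c D ≠ 0)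

/-- Candidate degrees of the non-exceptional characters. -/
def cands (N p k : ℕ) : List ℕ :=
  (List.range (N + 1)).filter fun D =>
    decide (3 ≤ D) && decide (D ∣ N) && (decide (D % p = 1) || decide (D % p = p - 1)) &&
      (decide (k = 1) || decide (2 * p ≤ D)) && decide (D * D < N)

/-- Search for multiplicities: `cnt` characters left, signed degree sum `tgt`, square budget `bud`. -/
def srch (p : ℕ) : List ℕ → ℕ → ℤ → ℕ → Bool
  | [], cnt, tgt, _ => decide (cnt = 0) && decide (tgt = 0)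
  | D :: L, cnt, tgt, bud =>
      (List.range (cnt + 1)).any fun c =>
        decide (c * (D * D) ≤ bud) &&
          srch p L (cnt - c) (tgt - sgn p D * ((c : ℤ) * (D : ℤ))) (bud - c * (D * D))

/-- Boolean search for `BrauerData N p _` (ignoring the `IsDeg` clauses). -/
def brauerB (N p : ℕ) : Bool :=
  (List.range (N + 1)).any fun n =>
    decide (n % p = 1) && decide (n ∣ N) && decide (N ∣ n.factorial) &&
      (List.range p).any fun e =>
        decide (2 ≤ e) && decide (e ∣ p - 1) && decide (n * (p * e) ∣ N) &&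
          (List.range (N + 1)).any fun d₀ =>
            decide (3 ≤ d₀) && decide (d₀ ∣ N) &&
              (decide (N / (n * (p * e)) = 1) || decide (2 * p ≤ d₀)) &&
              decide (1 + (p - 1) / e * (d₀ * d₀) ≤ N) &&
              ([1, -1] : List ℤ).any fun ε =>
                decide ((d₀ : ℤ) % (p : ℤ) = (ε * (e : ℤ)) % (p : ℤ)) &&
                  srch p (cands N p (N / (n * (p * e)))) (e - 1) (ε * (d₀ : ℤ) - 1)
                    (N - 1 - (p - 1) / e * (d₀ * d₀))

end Cfsg.Agent.H2.Census
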