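import Mathlib

/-!
# Arithmetic for the order 4320 (helper2)
-/

set_option autoImplicit false

namespace Cfsg.Agent.H2.O4320

/-- Possible degrees in the principal `5`-block. -/
theorem deg_options (d : ℕ) (hd : d ∣ 4320) (hd1 : d ≠ 1) (hsq : d ^ 2 ≤ 4320) :
    (d % 5 = 1 → d = 6 ∨ d = 16 ∨ d = 36) ∧ (d % 5 = 4 → d = 4 ∨ d = 9 ∨ d = 24 ∨ d = 54) := by
  have h66 : d < 66 := by nlinarith
  have hpos : 0 < d := Nat.pos_of_dvd_of_pos hd (by norm_num)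
  have key : ∀ d ∈ Finset.range 66, d ∣ 4320 → d ≠ 1 → 0 < d →
      ((d % 5 = 1 → d = 6 ∨ d = 16 ∨ d = 36) ∧
        (d % 5 = 4 → d = 4 ∨ d = 9 ∨ d = 24 ∨ d = 54)) := by decide
  exact key d (Finset.mem_range.mpr h66) hd hd1 hpos

/-- The list of possible signed degrees. -/
def sdegs : List ℤ := [6, 16, 36, -4, -9, -24, -54]

/-- Compatibility with the principal `2`-block. -/
def ok2 (sa sb sc sd : ℤ) : Prop :=
  ∃ ca ∈ ([0, 1] : List ℤ), ∃ cb ∈ ([0, 1] : List ℤ), ∃ cc ∈ ([0, 1] : List ℤ),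
    ∃ cd ∈ ([0, 1] : List ℤ),
    (ca = 1 → sa ≠ -4 ∧ sa ≠ 16) ∧ (cb = 1 → sb ≠ -4 ∧ sb ≠ 16) ∧
    (cc = 1 → sc ≠ -4 ∧ sc ≠ 16) ∧ (cd = 1 → sd ≠ -4 ∧ sd ≠ 16) ∧
    (1 + ca * sa + cb * sb + cc * sc + cd * sd) % 32 = 0

instance (sa sb sc sd : ℤ) : Decidable (ok2 sa sb sc sd) := by
  unfold ok2; infer_instance

/-- Compatibility with the principal `3`-block. -/
def ok3 (sa sb sc sd : ℤ) : Prop :=
  ∃ ea ∈ ([0, 1] : List ℤ), ∃ eb ∈ ([0, 1] : List ℤ), ∃ ec ∈ ([0, 1] : List ℤ),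
    ∃ ed ∈ ([0, 1] : List ℤ),
    (ea = 1 → sa ≠ -9) ∧ (eb = 1 → sb ≠ -9) ∧ (ec = 1 → sc ≠ -9) ∧ (ed = 1 → sd ≠ -9) ∧
    (1 + ea * sa + eb * sb + ec * sc + ed * sd) % 27 = 0

instance (sa sb sc sd : ℤ) : Decidable (ok3 sa sb sc sd) := by
  unfold ok3; infer_instance

set_option maxRecDepth 100000 in
/-- The arithmetic core: only the pattern `36, -4, -9, -24` survives. -/
theorem arith_core : ∀ sa ∈ sdegs, ∀ sb ∈ sdegs, ∀ sc ∈ sdegs, ∀ sd ∈ sdegs,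
    1 + sa + sb + sc + sd = 0 → ok2 sa sb sc sd → ok3 sa sb sc sd →
    (sa ≠ 6 ∧ sb ≠ 6 ∧ sc ≠ 6 ∧ sd ≠ 6) ∧ (sa = -4 ∨ sb = -4 ∨ sc = -4 ∨ sd = -4) := by
  decide

end Cfsg.Agent.H2.O4320
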