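import Mathlib
import Cfsg.Prelude.Def_HallClasses

set_option autoImplicit false

/-!
helper2: pronormality criteria via Sylow subgroups.

* `pronormal_of_sylow`: if a Sylow `p`-subgroup `T` of `G` lies in `H` and `N_G(T) ≤ N_G(H)`
  (e.g. `N_G(T) ≤ H`, or `T = H`), then `H` is pronormal in `G`.
* `pronormal_of_prime_index`: a subgroup of prime index is pronormal.
* `exists_sylow_le_of_not_dvd_index`: a subgroup of index prime to `p` contains a Sylow
  `p`-subgroup.
-/

namespace Cfsg.Agent.H2.PronSyl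

open Cfsg

variable {G : Type*} [Group G]

lemma map_conj_mul (H : Subgroup G) (a b : G) :
    H.map (MulAut.conj (a * b)).toMonoidHom =
      (H.map (MulAut.conj b).toMonoidHom).map (MulAut.conj a).toMonoidHom := by
  rw [Subgroup.map_map]
  congr 1
  ext x
  simp [MulAut.conj_apply, mul_assoc]

lemma map_conj_of_mem_normalizer (H : Subgroup G) (a : G)
    (ha : a ∈ Subgroup.normalizer (H : Set G)) :
    H.map (MulAut.conj a).toMonoidHom = H := by
  ext x
  constructor
  · rintro ⟨y, hy, rfl⟩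
    exact (Subgroup.mem_normalizer_iff.mp ha y).mp hy
  · intro hx
    refine ⟨a⁻¹ * x * a, ?_, ?_⟩
    · have h := (Subgroup.mem_normalizer_iff.mp ha (a⁻¹ * x * a)).mpr
      apply h
      have e : a * (a⁻¹ * x * a) * a⁻¹ = x := by group
      rw [e]; exact hx
    · show a * (a⁻¹ * x * a) * a⁻¹ = x
      group

/-- A subgroup containing a Sylow `p`-subgroup `T` with `N_G(T) ≤ N_G(H)` is pronormal. -/
theorem pronormal_of_sylow [Finite G] (p : ℕ) [Fact p.Prime] (H : Subgroup G) (T : Sylow p G)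
    (hTH : (T : Subgroup G) ≤ H)
    (hN : Subgroup.normalizer ((T : Subgroup G) : Set G) ≤ Subgroup.normalizer (H : Set G)) :
    Cfsg.IsPronormal H := by
  intro g
  set K : Subgroup G := H ⊔ H.map (MulAut.conj g).toMonoidHom with hK
  have h1 : (T : Subgroup G) ≤ K := hTH.trans le_sup_left
  have h2 : ((g • T : Sylow p G) : Subgroup G) ≤ K := by
    intro y hy
    rw [Sylow.coe_subgroup_smul, Subgroup.mem_pointwise_smul_iff_inv_smul_mem] at hy
    have hy' : (MulAut.conj g)⁻¹ • y ∈ H := hTH hy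
    apply (le_sup_right : H.map (MulAut.conj g).toMonoidHom ≤ K)
    refine ⟨(MulAut.conj g)⁻¹ • y, hy', ?_⟩
    show MulAut.conj g ((MulAut.conj g)⁻¹ • y) = y
    simp [MulAut.smul_def, MulAut.conj_inv_apply]
    group
  obtain ⟨k, hk⟩ := MulAction.exists_smul_eq K (T.subtype h1) ((g • T).subtype h2)
  -- `(k : G)⁻¹ * g` normalizes `T`
  have hmem : ∀ y : G, y ∈ K → ((k : G)⁻¹ * y * (k : G) ∈ (T : Subgroup G) ↔
      g⁻¹ * y * g ∈ (T : Subgroup G)) := by
    intro y hy
    have e := congrArg (fun S : Sylow p K => (⟨y, hy⟩ : K) ∈ S) hk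
    simp only [eq_iff_iff] at e
    have e1 : ((⟨y, hy⟩ : K) ∈ k • T.subtype h1) ↔ (k : G)⁻¹ * y * (k : G) ∈ (T : Subgroup G) := by
      change (⟨y, hy⟩ : K) ∈ ((k • T.subtype h1 : Sylow p K) : Subgroup K) ↔ _
      rw [Sylow.coe_subgroup_smul, Subgroup.mem_pointwise_smul_iff_inv_smul_mem]
      rw [Sylow.coe_subtype, Subgroup.mem_subgroupOf]
      simp [MulAut.smul_def, MulAut.conj_inv_apply]
    have e2 : ((⟨y, hy⟩ : K) ∈ (g • T).subtype h2) ↔ g⁻¹ * y * g ∈ (T : Subgroup G) := by
      change (⟨y, hy⟩ : K) ∈ (((g • T).subtype h2 : Sylow p K) : Subgroup K) ↔ _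
      rw [Sylow.coe_subtype, Subgroup.mem_subgroupOf]
      rw [Sylow.coe_subgroup_smul, Subgroup.mem_pointwise_smul_iff_inv_smul_mem]
      simp [MulAut.smul_def, MulAut.conj_inv_apply]
    rw [← e1, ← e2]; exact e
  have hnorm : (k : G)⁻¹ * g ∈ Subgroup.normalizer ((T : Subgroup G) : Set G) := by
    rw [Subgroup.mem_normalizer_iff]
    intro h
    -- y := g h g⁻¹
    have hyK : h ∈ (T : Subgroup G) → g * h * g⁻¹ ∈ K := by
      intro hh
      apply h2
      rw [Sylow.coe_subgroup_smul, Subgroup.mem_pointwise_smul_iff_inv_smul_mem]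
      simpa [MulAut.smul_def, MulAut.conj_inv_apply, mul_assoc] using hh
    have hyK' : (k : G)⁻¹ * g * h * ((k : G)⁻¹ * g)⁻¹ ∈ (T : Subgroup G) → g * h * g⁻¹ ∈ K := by
      intro hh
      have : g * h * g⁻¹ = (k : G) * ((k : G)⁻¹ * g * h * ((k : G)⁻¹ * g)⁻¹) * (k : G)⁻¹ := by
        group
      rw [this]
      exact K.mul_mem (K.mul_mem k.2 (h1 hh)) (K.inv_mem k.2)
    constructor
    · intro hh
      have := (hmem (g * h * g⁻¹) (hyK hh)).mpr (by
        have e : g⁻¹ * (g * h * g⁻¹) * g = h := by group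
        rw [e]; exact hh)
      have e : (k : G)⁻¹ * g * h * ((k : G)⁻¹ * g)⁻¹ = (k : G)⁻¹ * (g * h * g⁻¹) * (k : G) := by
        group
      rw [e]; exact this
    · intro hh
      have e : (k : G)⁻¹ * g * h * ((k : G)⁻¹ * g)⁻¹ = (k : G)⁻¹ * (g * h * g⁻¹) * (k : G) := by
        group
      have := (hmem (g * h * g⁻¹) (hyK' hh)).mp (by rw [← e]; exact hh)
      have e' : g⁻¹ * (g * h * g⁻¹) * g = h := by group
      rw [e'] at this; exact this
  refine ⟨(k : G), k.2, ?_⟩
  have hg : g = (k : G) * ((k : G)⁻¹ * g) := by group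
  conv_lhs => rw [hg]
  rw [map_conj_mul, map_conj_of_mem_normalizer H _ (hN hnorm)]

/-- A subgroup of prime index is pronormal. -/
theorem pronormal_of_prime_index [Finite G] (H : Subgroup G) (hp : H.index.Prime) :
    Cfsg.IsPronormal H := by
  intro g
  set K : Subgroup G := H ⊔ H.map (MulAut.conj g).toMonoidHom with hK
  have hHK : H ≤ K := le_sup_left
  have hdvd : K.index ∣ H.index := ⟨H.relIndex K, by rw [mul_comm]; exact (Subgroup.relIndex_mul_index hHK).symm⟩
  rcases (Nat.dvd_prime hp).mp hdvd with h1 | h1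
  · -- K = ⊤
    have hKtop : K = ⊤ := Subgroup.index_eq_one.mp h1
    exact ⟨g, by rw [hKtop]; trivial, rfl⟩
  · -- K = H
    have hrel : H.relIndex K = 1 := by
      have h2 := Subgroup.relIndex_mul_index hHK
      rw [h1] at h2
      have hpos : 0 < H.index := hp.pos
      nlinarith [h2]
    have hKH : K ≤ H := Subgroup.relIndex_eq_one.mp hrel
    have hle : H.map (MulAut.conj g).toMonoidHom ≤ H := le_sup_right.trans hKH
    have hcard : Nat.card (H.map (MulAut.conj g).toMonoidHom) = Nat.card H :=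
      Subgroup.card_map_of_injective (MulAut.conj g).injective
    have heq : H.map (MulAut.conj g).toMonoidHom = H :=
      Subgroup.eq_of_le_of_card_ge hle (by rw [hcard])
    refine ⟨1, K.one_mem, ?_⟩
    rw [heq]
    ext x
    simp

/-- A subgroup whose index is prime to `p` contains a Sylow `p`-subgroup. -/
theorem exists_sylow_le_of_not_dvd_index [Finite G] (p : ℕ) [Fact p.Prime] (H : Subgroup G)
    (h : ¬ p ∣ H.index) : ∃ T : Sylow p G, (T : Subgroup G) ≤ H := by
  obtain ⟨Q⟩ : Nonempty (Sylow p H) := inferInstance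
  have hp : IsPGroup p ((Q : Subgroup H).map H.subtype) := Q.isPGroup'.map H.subtype
  have hidx : ¬ p ∣ ((Q : Subgroup H).map H.subtype).index := by
    rw [Subgroup.index_map_subtype]
    intro hd
    rcases (Nat.Prime.dvd_mul Fact.out).mp hd with h1 | h1
    · exact Q.not_dvd_index h1
    · exact h h1
  refine ⟨hp.toSylow hidx, ?_⟩
  intro x hx
  rw [IsPGroup.toSylow_coe] at hx
  exact Subgroup.map_subtype_le _ hx

end Cfsg.Agent.H2.PronSyl
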