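import Mathlib
import Cfsg.Agent.H2.PrqDefs
import Cfsg.Agent.H2.BrDefs
import Cfsg.Agent.S0904
import Cfsg.Agent.S4501
import Cfsg.Agent.S0253
import Cfsg.Agent.H65.BRSetup
import Cfsg.Agent.H16.BRCol
import Cfsg.Agent.H21.SimpleTools
import Cfsg.Agent.H21.BrauerTuan
import Cfsg.Agent.H81.Reg
import Cfsg.Agent.H54.BrTwoOdd

/-!
# S0998: assembly from the team pieces (helper2)
-/

set_option autoImplicit false
set_option linter.style.haveILetI false

namespace Cfsg.Agent.H2.Prq

open Cfsg Cfsg.Agent.H21.BR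
open scoped ComplexConjugate

universe u

/-- No non-cyclic simple group has order `2^b p r` with primes `5 ≤ r < p`. -/
theorem main_false (hPar : StmtPar.{u}) (hAB : StmtArithB) (hPB : StmtParB.{u})
    (hTA : StmtTypeA.{u}) (hAA : StmtArithA)
    {G : Type u} [Group G] [Finite G] [IsSimpleGroup G] (hG : ¬ IsCyclic G)
    (p r b : ℕ) (hp : p.Prime) (hr : r.Prime) (hr5 : 5 ≤ r) (hrp : r < p)
    (hcard : Nat.card G = 2 ^ b * p * r) : False := by
  classical
  haveI : Fact p.Prime := ⟨hp⟩
  have hp2 : p ≠ 2 := by omega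
  have hcard' : Nat.card G = 2 ^ b * r ^ 1 * p := by rw [hcard]; ring
  obtain ⟨P⟩ : Nonempty (Sylow p G) := inferInstance
  have hP : Nat.card (P : Subgroup G) = p :=
    Cfsg.Agent.H21.BrauerTuan.card_sylow 2 r p b 1 Nat.prime_two hr (by omega) (by omega) hcard' P
  have hC : Subgroup.centralizer ((P : Subgroup G) : Set G) = (P : Subgroup G) :=
    Cfsg.Agent.S0904.result 2 r p b 1 Nat.prime_two hr (by omega) (by omega) (by omega) hcard' P
  have hGc : ¬ IsMulCommutative G := by
    intro hc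
    apply hG
    letI : CommGroup G := { ‹Group G› with mul_comm := fun a b => hc.is_comm.comm a b }
    exact IsSimpleGroup.isCyclic
  obtain ⟨e, he, he1, hedvd, hpe⟩ := Cfsg.Agent.H21.simple_sylow_prime_card_NC hGc P hP
  have heG : e ∣ 2 ^ b * r := by
    have h1 : p * e ∣ Nat.card G := dvd_trans hpe (Subgroup.card_subgroup_dvd_card _)
    rw [hcard] at h1
    have h2 : p * e ∣ p * (2 ^ b * r) := by
      have : 2 ^ b * p * r = p * (2 ^ b * r) := by ring
      rwa [this] at h1
    exact (Nat.mul_dvd_mul_iff_left hp.pos).mp h2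
  have hp1 : 0 < p - 1 := by omega
  have he0 : 0 < e := Nat.pos_of_dvd_of_pos hedvd hp1
  have hele : e ≤ p - 1 := Nat.le_of_dvd hp1 hedvd
  obtain ⟨ε, hε, hre, hD⟩ := hPar G hG p r b hr hr5 hrp hcard P hP e he.symm
  rcases hε with rfl | rfl
  · -- type A: `r = e`
    have hre' : r = e := by
      have h1 : (p : ℤ) ∣ 1 * (e : ℤ) - (r : ℤ) := hre.dvd
      have h2 : |1 * (e : ℤ) - (r : ℤ)| < (p : ℤ) := by
        rw [abs_lt]
        constructor <;> push_cast <;> omega
      have h3 := Int.eq_zero_of_abs_lt_dvd h1 h2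
      omega
    obtain ⟨t, ht⟩ := hedvd
    have het : e * t = p - 1 := ht.symm
    have ht0 : t ≠ 0 := by
      rintro rfl
      omega
    have ht1 : t ≠ 1 := by
      rintro rfl
      -- `r = p - 1` is even
      have hrodd : Odd r := hr.odd_of_ne_two (by omega)
      have hpodd : Odd p := hp.odd_of_ne_two hp2
      obtain ⟨k, hk⟩ := hrodd
      obtain ⟨l, hl⟩ := hpodd
      omega
    have ht2 : 2 ≤ t := by omega
    have he2 : 2 ≤ e := by omega
    have hte : 2 * e ≤ p - 1 := by
      rw [← het]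
      calc 2 * e = e * 2 := by ring
        _ ≤ e * t := Nat.mul_le_mul_left e ht2
    obtain ⟨X, Y, δ, ε', hB⟩ := Cfsg.Agent.H65.BR.b0_setup hG p hp2 P hP hC e he.symm hte
    obtain ⟨f0, hf0, hrel, hcolY, hcolYsq⟩ := Cfsg.Agent.H16.BR.col_facts p P hP hC e X Y δ ε' hB
    obtain ⟨hε1, hf0e⟩ :=
      hPB G p r b e hr hr5 hrp hcard (P : Subgroup G) X Y δ ε' hB f0 hf0 hrel hre'
    obtain ⟨ht2', χ, -, hdeg⟩ := hTA G p hp2 P hP hC e t het he2 ht2 X Y δ ε' hB hε1
      (fun θ hθ => by rw [hf0 θ hθ, hf0e]) hcolY hcolYsq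
    have hdvd : p + 1 ∣ Nat.card G := by
      rw [← hdeg]
      exact Cfsg.Agent.H81.irr_charDegree_dvd χ
    rw [hcard] at hdvd
    refine hAA p r b hp hr hr5 ?_ hdvd
    rw [← het, ht2', hre']
    ring
  · exact hAB p r e b hp hr hr5 hrp he1 hedvd heG hre hD

/-- **S0998** from the pieces. -/
theorem s0998_of (hOdd : StmtOdd.{u}) (hPar : StmtPar.{u}) (hAB : StmtArithB)
    (hPB : StmtParB.{u}) (hTA : StmtTypeA.{u}) (hAA : StmtArithA)
    {G : Type u} [Group G] [Finite G] [IsSimpleGroup G] (hG : ¬ IsCyclic G) (p q r b : ℕ)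
    (hp : p.Prime) (hq : q.Prime) (hr : r.Prime) (hpq : p ≠ q) (hpr : p ≠ r) (hqr : q ≠ r)
    (hG' : Nat.card G = p * r * q ^ b) :
    (∃ (F : Type) (_ : Field F) (_ : Fintype F), Fintype.card F = 5 ∧
        Nonempty (G ≃* Matrix.ProjectiveSpecialLinearGroup (Fin 2) F)) ∨
      (∃ (F : Type) (_ : Field F) (_ : Fintype F), Fintype.card F = 7 ∧
        Nonempty (G ≃* Matrix.ProjectiveSpecialLinearGroup (Fin 2) F)) := by
  classical
  have hna : ∃ x y : G, x * y ≠ y * x := by
    by_contra h
    push Not at h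
    apply hG
    letI : CommGroup G := { ‹Group G› with mul_comm := h }
    exact IsSimpleGroup.isCyclic
  by_cases hq2 : q = 2
  · subst hq2
    have hp2 : p ≠ 2 := hpq
    have hr2 : r ≠ 2 := fun h => hqr h.symm
    by_cases h3 : p = 3 ∨ r = 3
    · have key : Nonempty (G ≃* alternatingGroup (Fin 5)) ∨
          Nonempty (G ≃* Matrix.ProjectiveSpecialLinearGroup (Fin 2) (ZMod 7)) := by
        rcases h3 with rfl | rfl
        · exact (Cfsg.Agent.S4501.result hna r 2 1 b hr Nat.prime_two hr2 (by norm_num)).2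
            (by rw [hG']; ring)
        · exact (Cfsg.Agent.S4501.result hna p 2 1 b hp Nat.prime_two hp2 (by norm_num)).2
            (by rw [hG']; ring)
      rcases key with ⟨⟨f⟩⟩ | ⟨⟨f⟩⟩
      · left
        haveI : Fact (Nat.Prime 5) := ⟨by norm_num⟩
        obtain ⟨g⟩ := Cfsg.Agent.S0253.result (F := ZMod 5) (ZMod.card 5)
        exact ⟨ZMod 5, inferInstance, inferInstance, ZMod.card 5, ⟨f.trans g.symm⟩⟩
      · right
        haveI : Fact (Nat.Prime 7) := ⟨by norm_num⟩
        exact ⟨ZMod 7, inferInstance, inferInstance, ZMod.card 7, ⟨f⟩⟩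
    · exfalso
      push Not at h3
      have hp5 : 5 ≤ p := by
        have h2 := hp.two_le
        by_contra hlt
        have : p = 4 := by omega
        subst this
        exact absurd hp (by norm_num)
      have hr5 : 5 ≤ r := by
        have h2 := hr.two_le
        by_contra hlt
        have : r = 4 := by omega
        subst this
        exact absurd hr (by norm_num)
      rcases lt_or_gt_of_ne hpr with h | h
      · exact main_false hPar hAB hPB hTA hAA hG r p b hr hp hp5 h (by rw [hG']; ring)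
      · exact main_false hPar hAB hPB hTA hAA hG p r b hp hr hr5 h (by rw [hG']; ring)
  · exfalso
    have hqodd : Odd q := hq.odd_of_ne_two hq2
    by_cases h2 : p = 2 ∨ r = 2
    · have h2dvd : 2 ∣ Nat.card G := by
        rw [hG']
        rcases h2 with rfl | rfl
        · exact Dvd.dvd.mul_right (Dvd.dvd.mul_right (dvd_refl 2) _) _
        · exact Dvd.dvd.mul_right (Dvd.dvd.mul_left (dvd_refl 2) _) _
      have h4 : 4 ∣ Nat.card G := Cfsg.Agent.H54.Br.twoOdd G hna h2dvd
      rw [hG'] at h4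
      have hqb : Odd (q ^ b) := hqodd.pow
      rcases h2 with rfl | rfl
      · have hrodd : Odd r := hr.odd_of_ne_two (fun h => hpr h.symm)
        have : Odd (r * q ^ b) := hrodd.mul hqb
        obtain ⟨k, hk⟩ := this
        have h5 : 2 * r * q ^ b = 2 * (2 * k + 1) := by rw [← hk]; ring
        rw [h5] at h4
        omega
      · have hpodd : Odd p := hp.odd_of_ne_two hpr
        have : Odd (p * q ^ b) := hpodd.mul hqb
        obtain ⟨k, hk⟩ := this
        have h5 : p * 2 * q ^ b = 2 * (2 * k + 1) := by rw [← hk]; ring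
        rw [h5] at h4
        omega
    · push Not at h2
      have hodd : Odd (Nat.card G) := by
        rw [hG']
        exact ((hp.odd_of_ne_two h2.1).mul (hr.odd_of_ne_two h2.2)).mul hqodd.pow
      exact hOdd G hG p q r b hp hq hr hpq hpr hqr hG' hodd

end Cfsg.Agent.H2.Prq
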