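import Mathlib
import Cfsg.Agent.H2.RVSemi

/-!
# A numerical consequence of the list of `p'`-subgroups of `PSL(2, q)` (helper2)

If a group of the shape `RVP` (cyclic, dihedral, `A₄`, `S₄`, `A₅`) contains elements `e i` whose
orders `k` all satisfy `p - 1 ∣ 3 k` and no three of which commute pairwise, then `p ≤ 13`, and
there are fewer than seven of them.
-/

set_option autoImplicit false

namespace Cfsg.Agent.H2.RV

set_option maxRecDepth 100000 in
theorem a4_pow : ∀ x : alternatingGroup (Fin 4), x ^ 2 = 1 ∨ x ^ 3 = 1 := by decide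

set_option maxRecDepth 100000 in
theorem s4_pow : ∀ x : Equiv.Perm (Fin 4), x ^ 2 = 1 ∨ x ^ 3 = 1 ∨ x ^ 4 = 1 := by decide

set_option maxRecDepth 100000 in
theorem a5_pow : ∀ x : alternatingGroup (Fin 5), x ^ 2 = 1 ∨ x ^ 3 = 1 ∨ x ^ 5 = 1 := by decide

set_option maxRecDepth 100000 in
theorem s4_comm : ∀ x y : Equiv.Perm (Fin 4), x ^ 2 = y ^ 2 → x ^ 2 ≠ 1 → x * y = y * x := by
  decide

/-- The squares of the elements of order `4` of `S₄`. -/
def s4sq : Finset (Equiv.Perm (Fin 4)) :=
  (Finset.univ.filter (fun x : Equiv.Perm (Fin 4) => x ^ 2 ≠ 1 ∧ x ^ 4 = 1)).image (fun x => x ^ 2)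

set_option maxRecDepth 100000 in
theorem s4sq_card : s4sq.card = 3 := by decide

theorem dvd_six_false {p : ℕ} (hp7 : 7 < p) (h : (p - 1) ∣ 6) : False := by
  have := Nat.le_of_dvd (by norm_num) h
  omega

theorem dvd_nine_false {p : ℕ} (hpr : p.Prime) (hp7 : 7 < p) (h : (p - 1) ∣ 9) : False := by
  have := Nat.le_of_dvd (by norm_num) h
  have h1 : p ≤ 10 := by omega
  interval_cases p
  · norm_num at h
  · norm_num at h
  · norm_num at hpr

theorem dvd_fifteen_false {p : ℕ} (hpr : p.Prime) (hp7 : 7 < p) (h : (p - 1) ∣ 15) : False := by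
  have := Nat.le_of_dvd (by norm_num) h
  have h1 : p ≤ 16 := by omega
  interval_cases p <;> first | (norm_num at h; done) | (norm_num at hpr; done)

theorem dvd_twelve {p : ℕ} (hpr : p.Prime) (hp7 : 7 < p) (h : (p - 1) ∣ 12) : p = 13 := by
  have := Nat.le_of_dvd (by norm_num) h
  have h1 : p ≤ 13 := by omega
  interval_cases p <;> first | rfl | (norm_num at h; done) | (norm_num at hpr; done)

theorem abs_bound {X : Type*} [Group X] (hX : RVP X) (p : ℕ) (hpr : p.Prime) (hp7 : 7 < p)
    {ι : Type*} (e : ι → X) (hord : ∀ i k, e i ^ k = 1 → (p - 1) ∣ 3 * k)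
    (hcomm : ∀ i j l, i ≠ j → i ≠ l → j ≠ l → e i * e j = e j * e i → e i * e l = e l * e i →
      e j * e l = e l * e j → False) :
    (∀ i j l : ι, i ≠ j → i ≠ l → j ≠ l → p = 13) ∧
      (∀ f : Fin 7 → ι, Function.Injective f → False) := by
  -- a reduction: if everything commutes we are done
  have hab : (∀ i j, e i * e j = e j * e i) →
      (∀ i j l : ι, i ≠ j → i ≠ l → j ≠ l → p = 13) ∧
      (∀ f : Fin 7 → ι, Function.Injective f → False) := by
    intro hc
    refine ⟨fun i j l hij hil hjl => (hcomm i j l hij hil hjl (hc _ _) (hc _ _) (hc _ _)).elim,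
      fun f hf => ?_⟩
    exact hcomm (f 0) (f 1) (f 2) (fun h => by simpa using hf h) (fun h => by simpa using hf h)
      (fun h => by simpa using hf h) (hc _ _) (hc _ _) (hc _ _)
  -- a reduction: if there is no index at all, or a contradiction for every index
  have hno : (∀ i : ι, False) →
      (∀ i j l : ι, i ≠ j → i ≠ l → j ≠ l → p = 13) ∧
      (∀ f : Fin 7 → ι, Function.Injective f → False) := by
    intro hc
    exact ⟨fun i _ _ _ _ _ => (hc i).elim, fun f _ => hc (f 0)⟩
  have h2 : ∀ i, e i ^ 2 = 1 → False := fun i h =>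
    dvd_six_false hp7 (by simpa using hord i 2 h)
  have h3 : ∀ i, e i ^ 3 = 1 → False := fun i h =>
    dvd_nine_false hpr hp7 (by simpa using hord i 3 h)
  rcases hX with hc | ⟨k, ⟨φ⟩⟩ | ⟨⟨φ⟩⟩ | ⟨⟨φ⟩⟩ | ⟨⟨φ⟩⟩
  · -- cyclic
    apply hab
    obtain ⟨g, hg⟩ := hc.exists_generator
    intro i j
    obtain ⟨m, hm⟩ := Subgroup.mem_zpowers_iff.1 (hg (e i))
    obtain ⟨n, hn⟩ := Subgroup.mem_zpowers_iff.1 (hg (e j))
    rw [← hm, ← hn, ← zpow_add, ← zpow_add, add_comm]
  · -- dihedral
    apply hab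
    have hrot : ∀ i, ∃ a, φ (e i) = DihedralGroup.r a := by
      intro i
      rcases hφ : φ (e i) with a | a
      · exact ⟨a, rfl⟩
      · exfalso
        apply h2 i
        apply φ.injective
        rw [map_pow, hφ, map_one, pow_two, DihedralGroup.sr_mul_self]
    intro i j
    obtain ⟨a, ha⟩ := hrot i
    obtain ⟨b, hb⟩ := hrot j
    apply φ.injective
    rw [map_mul, map_mul, ha, hb, DihedralGroup.r_mul_r, DihedralGroup.r_mul_r, add_comm]
  · -- A4
    apply hno
    intro i
    rcases a4_pow (φ (e i)) with h | h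
    · exact h2 i (φ.injective (by rw [map_pow, h, map_one]))
    · exact h3 i (φ.injective (by rw [map_pow, h, map_one]))
  · -- S4
    have h4 : ∀ i, φ (e i) ^ 2 ≠ 1 ∧ φ (e i) ^ 4 = 1 := by
      intro i
      have hne : φ (e i) ^ 2 ≠ 1 := fun h => h2 i (φ.injective (by rw [map_pow, h, map_one]))
      rcases s4_pow (φ (e i)) with h | h | h
      · exact absurd h hne
      · exact (h3 i (φ.injective (by rw [map_pow, h, map_one]))).elim
      · exact ⟨hne, h⟩
    have hp13 : ∀ i : ι, p = 13 := by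
      intro i
      have h := (h4 i).2
      have h' : e i ^ 4 = 1 := φ.injective (by rw [map_pow, h, map_one])
      exact dvd_twelve hpr hp7 (by simpa using hord i 4 h')
    refine ⟨fun i _ _ _ _ _ => hp13 i, fun f hf => ?_⟩
    have hmaps : ∀ a ∈ (Finset.univ : Finset (Fin 7)), φ (e (f a)) ^ 2 ∈ s4sq := by
      intro a _
      unfold s4sq
      rw [Finset.mem_image]
      exact ⟨φ (e (f a)), by simp [h4 (f a)], rfl⟩
    obtain ⟨y, -, hy⟩ := Finset.exists_lt_card_fiber_of_mul_lt_card_of_maps_to hmaps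
      (n := 2) (by rw [s4sq_card]; simp)
    obtain ⟨a, b, c, ha, hb, hc, hab', hac, hbc⟩ := Finset.two_lt_card_iff.1 hy
    simp only [Finset.mem_filter, Finset.mem_univ, true_and] at ha hb hc
    have hcm : ∀ u v : Fin 7, φ (e (f u)) ^ 2 = y → φ (e (f v)) ^ 2 = y →
        e (f u) * e (f v) = e (f v) * e (f u) := by
      intro u v hu hv
      apply φ.injective
      rw [map_mul, map_mul]
      exact s4_comm _ _ (by rw [hu, hv]) (h4 (f u)).1
    exact hcomm (f a) (f b) (f c) (fun h => hab' (hf h)) (fun h => hac (hf h))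
      (fun h => hbc (hf h)) (hcm a b ha hb) (hcm a c ha hc) (hcm b c hb hc)
  · -- A5
    apply hno
    intro i
    rcases a5_pow (φ (e i)) with h | h | h
    · exact h2 i (φ.injective (by rw [map_pow, h, map_one]))
    · exact h3 i (φ.injective (by rw [map_pow, h, map_one]))
    · have h' : e i ^ 5 = 1 := φ.injective (by rw [map_pow, h, map_one])
      exact dvd_fifteen_false hpr hp7 (by simpa using hord i 5 h')

end Cfsg.Agent.H2.RV
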