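import Mathlib
import Cfsg.Agent.H2.RVAbs
import Cfsg.Agent.H29.Dk6
import Cfsg.Agent.H29.Dk8

/-!
# `p'`-groups of `2 × 2` matrices over `𝔽_p` with prescribed eigen-data (helper2)

`mat_bound`: a homomorphism `M : N → M₂(𝔽_p)` with `M n ^ k = 1` (`p ∤ k`), a generator `a` of
`𝔽_pˣ` and elements `n i` with `M (n i)` of determinant `a` having `v i` as an eigenvector for
`a⁻¹`, the `v i` pairwise non-proportional.  If `p > 7` then three such indices force `p = 13` and
seven are impossible.  Proof: divide by square roots of the determinants in `𝔽_{p²}`, apply the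
`p'`-case of Dickson's theorem for `PSL₂(p²)` (`rv_semi`) and `abs_bound`.
-/

set_option autoImplicit false
set_option linter.unusedSectionVars false
set_option linter.unusedVariables false

namespace Cfsg.Agent.H2.RV

open Matrix Cfsg.Agent.H65.SL2 Cfsg.Agent.H29.Dk Cfsg.Agent.H18.Dk

section wedge

variable {K : Type*}

/-- The determinant of two vectors of `K²`. -/
def wd [CommRing K] (u v : Fin 2 → K) : K := u 0 * v 1 - u 1 * v 0

theorem wd_mulVec [CommRing K] (M : Matrix (Fin 2) (Fin 2) K) (u v : Fin 2 → K) :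
    wd (M *ᵥ u) (M *ᵥ v) = M.det * wd u v := by
  simp only [wd, Matrix.mulVec, dotProduct, Fin.sum_univ_two, Matrix.det_fin_two]
  ring

theorem wd_smul [CommRing K] (c d : K) (u v : Fin 2 → K) :
    wd (c • u) (d • v) = c * d * wd u v := by
  simp only [wd, Pi.smul_apply, smul_eq_mul]; ring

theorem exists_smul_of_wd [Field K] {u v : Fin 2 → K} (h : wd u v = 0) (hv : v ≠ 0) :
    ∃ c : K, u = c • v := by
  unfold wd at h
  by_cases h0 : v 0 = 0
  · have h1 : v 1 ≠ 0 := by
      intro h1; apply hv; funext i; fin_cases i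
      · exact h0
      · exact h1
    refine ⟨u 1 / v 1, ?_⟩
    rw [h0, mul_zero, sub_zero] at h
    have hu0 : u 0 = 0 := by
      rcases mul_eq_zero.1 h with h | h
      · exact h
      · exact absurd h h1
    funext i; fin_cases i
    · simp [hu0, h0]
    · simp; field_simp
  · refine ⟨u 0 / v 0, ?_⟩
    funext i; fin_cases i
    · simp; field_simp
    · simp; field_simp; linear_combination -h

theorem pow_mulVec [CommRing K] (M : Matrix (Fin 2) (Fin 2) K) (v : Fin 2 → K) (b : K)
    (h : M *ᵥ v = b • v) (j : ℕ) : (M ^ j) *ᵥ v = b ^ j • v := by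
  induction j with
  | zero => simp
  | succ j ih =>
    rw [pow_succ, ← Matrix.mulVec_mulVec, h, Matrix.mulVec_smul, ih, smul_smul, pow_succ,
      mul_comm]

theorem la_comm [Field K] {a b : K} (hab : a * b = 1) (ha3 : a ^ 3 ≠ 1) (ha3' : a ^ 3 ≠ -1)
    (M M' : Matrix (Fin 2) (Fin 2) K) (v v' : Fin 2 → K) (hv' : v' ≠ 0) (hw : wd v v' ≠ 0)
    (hM : M *ᵥ v = b • v) (hM' : M' *ᵥ v' = b • v') (hd : M.det = a) (hd' : M'.det = a)
    (ε : K) (hε : ε = 1 ∨ ε = -1) (hc : M * M' = ε • (M' * M)) : M *ᵥ v' = a ^ 2 • v' := by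
  have hεε : ε * ε = 1 := by rcases hε with rfl | rfl <;> ring
  have hc' : M' * M = ε • (M * M') := by rw [hc, smul_smul, hεε, one_smul]
  have hu : M' *ᵥ (M *ᵥ v') = (ε * b) • (M *ᵥ v') := by
    rw [Matrix.mulVec_mulVec, hc', Matrix.smul_mulVec, ← Matrix.mulVec_mulVec, hM',
      Matrix.mulVec_smul, smul_smul]
  have h1 := wd_mulVec M' (M *ᵥ v') v'
  rw [hu, hM', wd_smul, hd'] at h1
  have h2 : wd (M *ᵥ v') v' = 0 := by
    by_contra hne
    have h3 : ε * b * b = a := mul_right_cancel₀ hne h1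
    have hab' : b * a = 1 := by rw [mul_comm]; exact hab
    have h4 : a ^ 3 = ε := by
      calc a ^ 3 = (ε * b * b) * a * a := by rw [h3]; ring
        _ = ε * (b * a) * (b * a) := by ring
        _ = ε := by rw [hab']; ring
    rcases hε with h | h
    · exact ha3 (by rw [h4, h])
    · exact ha3' (by rw [h4, h])
  obtain ⟨c, hcu⟩ := exists_smul_of_wd h2 hv'
  have h5 := wd_mulVec M v v'
  rw [hM, hcu, wd_smul, hd] at h5
  have h6 : b * c = a := mul_right_cancel₀ hw h5
  have h7 : c = a ^ 2 := by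
    calc c = (a * b) * c := by rw [hab, one_mul]
      _ = a * (b * c) := by ring
      _ = a ^ 2 := by rw [h6]; ring
  rw [hcu, h7]

theorem la_three [Field K] {a : K} (ha0 : a ≠ 0) (ha3 : a ^ 3 ≠ 1)
    (M : Matrix (Fin 2) (Fin 2) K) (v₁ v₂ : Fin 2 → K) (h1 : M *ᵥ v₁ = a ^ 2 • v₁)
    (h2 : M *ᵥ v₂ = a ^ 2 • v₂) (hw : wd v₁ v₂ ≠ 0) (hd : M.det = a) : False := by
  have h := wd_mulVec M v₁ v₂
  rw [h1, h2, wd_smul, hd] at h
  have h3 : a ^ 2 * a ^ 2 = a := mul_right_cancel₀ hw h
  apply ha3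
  have h4 : a * a ^ 3 = a * 1 := by rw [mul_one]; linear_combination h3
  exact mul_left_cancel₀ ha0 h4

end wedge

variable (p : ℕ) [hp : Fact p.Prime]

/-- The inclusion of the prime field in the field with `p²` elements. -/
noncomputable abbrev iF : ZMod p →+* GaloisField p 2 := algebraMap (ZMod p) (GaloisField p 2)

/-- The matrices over `𝔽_{p²}`. -/
noncomputable def AA {N : Type*} [Group N] (M : N →* Matrix (Fin 2) (Fin 2) (ZMod p)) :
    N →* Matrix (Fin 2) (Fin 2) (GaloisField p 2) :=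
  ((iF p).mapMatrix : Matrix (Fin 2) (Fin 2) (ZMod p) →+* _).toMonoidHom.comp M

theorem AA_apply {N : Type*} [Group N] (M : N →* Matrix (Fin 2) (Fin 2) (ZMod p)) (n : N) :
    AA p M n = (iF p).mapMatrix (M n) := rfl

/-- The elements of `SL₂(p²)` proportional to some `M n`. -/
noncomputable def LL {N : Type*} [Group N] (M : N →* Matrix (Fin 2) (Fin 2) (ZMod p)) :
    Subgroup (Matrix.SpecialLinearGroup (Fin 2) (GaloisField p 2)) where
  carrier := {x | ∃ n : N, ∃ c : GaloisField p 2, x.1 = c • AA p M n}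
  one_mem' := ⟨1, 1, by simp⟩
  mul_mem' := by
    rintro x y ⟨n, c, hx⟩ ⟨n', c', hy⟩
    refine ⟨n * n', c * c', ?_⟩
    rw [Matrix.SpecialLinearGroup.coe_mul, hx, hy, map_mul, smul_mul_smul_comm]
  inv_mem' := by
    rintro x ⟨n, c, hx⟩
    have hfin : x⁻¹ = x ^ (orderOf x - 1) := by
      have h1 : 0 < orderOf x := orderOf_pos x
      rw [inv_eq_iff_mul_eq_one, ← pow_succ', Nat.sub_add_cancel h1, pow_orderOf_eq_one]
    rw [hfin]
    refine ⟨n ^ (orderOf x - 1), c ^ (orderOf x - 1), ?_⟩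
    rw [Matrix.SpecialLinearGroup.coe_pow, hx, smul_pow, map_pow]

theorem LL_semi (hp2 : p ≠ 2) {N : Type*} [Group N] (M : N →* Matrix (Fin 2) (Fin 2) (ZMod p))
    (k : ℕ) (hk : ¬ p ∣ k) (hMk : ∀ n, M n ^ k = 1) :
    ∀ x ∈ LL p M, x ∉ (Ze : Subgroup _) → tr x ^ 2 ≠ 4 := by
  rintro x ⟨n, c, hx⟩ hxZ htr
  have hxk : (x ^ k).1 = c ^ k • (1 : Matrix (Fin 2) (Fin 2) (GaloisField p 2)) := by
    rw [Matrix.SpecialLinearGroup.coe_pow, hx, smul_pow, ← map_pow, AA_apply, map_pow, hMk,
      map_one]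
  have hdet : (c ^ k) ^ 2 = 1 := by
    have h := (x ^ k).det_coe
    rw [hxk, Matrix.det_smul, Matrix.det_one, mul_one, Fintype.card_fin] at h
    exact h
  have hx2k : x ^ (k * 2) = 1 := by
    apply Subtype.ext
    rw [pow_mul, Matrix.SpecialLinearGroup.coe_pow, hxk, smul_pow, one_pow, hdet, one_smul]
    rfl
  have key : ∀ y : Matrix.SpecialLinearGroup (Fin 2) (GaloisField p 2), tr y = 2 →
      y ^ (k * 2) = 1 → y = 1 := by
    intro y hy hyk
    by_contra hne
    obtain ⟨g, hg, hgy⟩ := exists_conj_uT y hy hne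
    rw [← hgy, ← map_pow, uT_pow] at hyk
    have h1 : uT (((k * 2 : ℕ) : GaloisField p 2) * 1) = uT 0 := by
      apply conjHom_injective g hg
      rw [hyk, uT_zero, map_one]
    have h2 := uT_inj h1
    rw [mul_one] at h2
    have h3 : p ∣ k * 2 := (CharP.cast_eq_zero_iff (GaloisField p 2) p _).1 h2
    rcases (Nat.Prime.dvd_mul hp.out).1 h3 with h | h
    · exact hk h
    · exact hp2 ((Nat.prime_dvd_prime_iff_eq hp.out Nat.prime_two).1 h)
  have h4 : (tr x - 2) * (tr x + 2) = 0 := by linear_combination htr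
  rcases mul_eq_zero.1 h4 with h | h
  · apply hxZ
    rw [key x (by linear_combination h) hx2k]
    exact Subgroup.one_mem _
  · apply hxZ
    have htn : tr (-x) = -tr x := by
      unfold tr
      rw [Matrix.SpecialLinearGroup.coe_neg]
      simp only [Matrix.neg_apply]
      ring
    have h5 : -x = 1 := key (-x) (by rw [htn]; linear_combination -h)
      (by rw [Even.neg_pow ⟨k, by ring⟩, hx2k])
    have h6 : x = -1 := by rw [← h5, neg_neg]
    rw [h6]; exact neg_one_mem_Ze

theorem exists_sqrt (hp2 : p ≠ 2) (a : ZMod p) (ha : a ≠ 0) :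
    ∃ s : GaloisField p 2, s * s = iF p a := by
  haveI : Fintype (GaloisField p 2) := Fintype.ofFinite _
  have hF : ringChar (GaloisField p 2) ≠ 2 := by
    rw [ringChar.eq (GaloisField p 2) p]; exact hp2
  have hne : iF p a ≠ 0 := by
    rw [Ne, map_eq_zero]
    exact ha
  have hcard : Fintype.card (GaloisField p 2) = p ^ 2 := by
    rw [← Nat.card_eq_fintype_card]; exact GaloisField.card p 2 (by norm_num)
  have hsq : IsSquare (iF p a) := by
    rw [FiniteField.isSquare_iff hF hne, hcard]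
    obtain ⟨j, hj⟩ : ∃ j, p = 2 * j + 1 := by
      rcases hp.out.eq_two_or_odd' with h | h
      · exact absurd h hp2
      · obtain ⟨j, hj⟩ := h; exact ⟨j, hj⟩
    have hdiv : p ^ 2 / 2 = (p - 1) * (j + 1) := by
      have h1 : p - 1 = 2 * j := by omega
      have h2 : p ^ 2 = 2 * ((p - 1) * (j + 1)) + 1 := by
        rw [h1, hj]; ring
      rw [h2]
      generalize (p - 1) * (j + 1) = m
      omega
    rw [hdiv, pow_mul, ← map_pow, ZMod.pow_card_sub_one_eq_one ha, map_one, one_pow]
  obtain ⟨s, hs⟩ := hsq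
  exact ⟨s, hs.symm⟩

theorem mat_bound (hp7 : 7 < p) {N : Type*} [Group N]
    (M : N →* Matrix (Fin 2) (Fin 2) (ZMod p)) (k : ℕ) (hk : ¬ p ∣ k) (hMk : ∀ n, M n ^ k = 1)
    (a b : ZMod p) (hab : a * b = 1) (ha : orderOf a = p - 1)
    {ι : Type*} (n : ι → N) (v : ι → Fin 2 → ZMod p)
    (hw : ∀ i j, i ≠ j → wd (v i) (v j) ≠ 0) (hv : ∀ i, v i ≠ 0)
    (heig : ∀ i, M (n i) *ᵥ v i = b • v i) (hdet : ∀ i, (M (n i)).det = a) :
    (∀ i j l : ι, i ≠ j → i ≠ l → j ≠ l → p = 13) ∧
      (∀ f : Fin 7 → ι, Function.Injective f → False) := by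
  classical
  haveI : Fintype (GaloisField p 2) := Fintype.ofFinite _
  have hp2 : p ≠ 2 := by omega
  have ha0 : a ≠ 0 := left_ne_zero_of_mul_eq_one hab
  have ha3 : a ^ 3 ≠ 1 := by
    intro h
    have h1 := orderOf_dvd_of_pow_eq_one h
    rw [ha] at h1
    have := Nat.le_of_dvd (by norm_num) h1
    omega
  have ha6 : a ^ 3 ≠ -1 := by
    intro h
    have h6 : a ^ 6 = 1 := by
      have : a ^ 6 = (a ^ 3) ^ 2 := by ring
      rw [this, h]; ring
    have h1 := orderOf_dvd_of_pow_eq_one h6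
    rw [ha] at h1
    have := Nat.le_of_dvd (by norm_num) h1
    omega
  have hinj : Function.Injective (iF p) := (iF p).injective
  -- the lifts
  have hlift : ∀ i, ∃ x : Matrix.SpecialLinearGroup (Fin 2) (GaloisField p 2),
      ∃ c : GaloisField p 2, c ≠ 0 ∧ x.1 = c • AA p M (n i) := by
    intro i
    obtain ⟨s, hs⟩ := exists_sqrt p hp2 a ha0
    have hs0 : s ≠ 0 := by
      rintro rfl
      rw [mul_zero] at hs
      exact ha0 ((map_eq_zero (iF p)).1 hs.symm)
    have hdetA : (AA p M (n i)).det = iF p a := by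
      rw [AA_apply, ← RingHom.map_det, hdet]
    refine ⟨⟨s⁻¹ • AA p M (n i), ?_⟩, s⁻¹, inv_ne_zero hs0, rfl⟩
    rw [Matrix.det_smul, hdetA, Fintype.card_fin, ← hs]
    field_simp
  choose x c hc hx using hlift
  have hxL : ∀ i, x i ∈ LL p M := fun i => ⟨n i, c i, hx i⟩
  have hZL : (Ze : Subgroup _) ≤ LL p M := by
    intro ζ hζ
    rw [mem_Ze] at hζ
    refine ⟨1, ζ.1 0 0, ?_⟩
    rw [map_one]
    ext i j
    fin_cases i <;> fin_cases j <;> simp [hζ.1, hζ.2.1, hζ.2.2, Matrix.one_apply]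
  have hR := rv_semi (LL p M) hZL (LL_semi p hp2 M k hk hMk)
  let e : ι → ↥((LL p M).map (mkP (GaloisField p 2))) :=
    fun i => ⟨mkP (GaloisField p 2) (x i), Subgroup.mem_map_of_mem _ (hxL i)⟩
  -- commuting pairs
  have hpair : ∀ i j, e i * e j = e j * e i → ∃ ε : ZMod p, (ε = 1 ∨ ε = -1) ∧
      M (n j) * M (n i) = ε • (M (n i) * M (n j)) := by
    intro i j hij
    have h1 : mkP (GaloisField p 2) (x i * x j) = mkP (GaloisField p 2) (x j * x i) := by
      have := congrArg Subtype.val hij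
      simpa [e] using this
    have h2 := mkP_eq_iff.1 h1
    set ζ := (x i * x j)⁻¹ * (x j * x i) with hζ
    have h3 : x j * x i = (x i * x j) * ζ := by rw [hζ]; group
    have hz := mem_Ze.1 h2
    have hzdet := det_eq ζ
    rw [hz.1, hz.2.1, mul_zero, sub_zero, ← hz.2.2] at hzdet
    have hζ1 : ζ.1 = ζ.1 0 0 • (1 : Matrix (Fin 2) (Fin 2) (GaloisField p 2)) := by
      ext r s
      fin_cases r <;> fin_cases s <;> simp [hz.1, hz.2.1, hz.2.2, Matrix.one_apply]
    have h4 : (x j).1 * (x i).1 = (x i).1 * (x j).1 * ζ.1 := by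
      have := congrArg Subtype.val h3
      simpa [Matrix.SpecialLinearGroup.coe_mul] using this
    rw [hx i, hx j, hζ1, smul_mul_smul_comm, smul_mul_smul_comm, Matrix.mul_smul, Matrix.mul_one,
      smul_smul] at h4
    have hcc : c j * c i ≠ 0 := mul_ne_zero (hc j) (hc i)
    have h5 : AA p M (n j) * AA p M (n i) = ζ.1 0 0 • (AA p M (n i) * AA p M (n j)) := by
      have h6 : (c j * c i) • (AA p M (n j) * AA p M (n i)) =
          (c j * c i) • (ζ.1 0 0 • (AA p M (n i) * AA p M (n j))) := by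
        rw [h4, smul_smul]; congr 1; ring
      exact smul_right_injective _ hcc h6
    have ht : ζ.1 0 0 = 1 ∨ ζ.1 0 0 = -1 := by
      have : (ζ.1 0 0 - 1) * (ζ.1 0 0 + 1) = 0 := by linear_combination hzdet
      rcases mul_eq_zero.1 this with h | h
      · left; linear_combination h
      · right; linear_combination h
    have hmapinj : Function.Injective ((iF p).mapMatrix :
        Matrix (Fin 2) (Fin 2) (ZMod p) → Matrix (Fin 2) (Fin 2) (GaloisField p 2)) := by
      intro A B hAB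
      ext r s
      have := congrFun (congrFun hAB r) s
      simp only [RingHom.mapMatrix_apply, Matrix.map_apply] at this
      exact hinj this
    rcases ht with h | h
    · refine ⟨1, Or.inl rfl, ?_⟩
      apply hmapinj
      rw [one_smul, map_mul, map_mul]
      rw [h, one_smul] at h5
      exact h5
    · refine ⟨-1, Or.inr rfl, ?_⟩
      apply hmapinj
      rw [neg_one_smul, map_neg, map_mul, map_mul]
      rw [h, neg_one_smul] at h5
      exact h5
  refine abs_bound hR p hp.out hp7 e ?_ ?_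
  · -- orders
    intro i j hj
    have h1 : mkP (GaloisField p 2) (x i ^ j) = 1 := by
      have := congrArg Subtype.val hj
      simpa [e] using this
    have h2 := mem_Ze.1 (mkP_eq_one_iff.1 h1)
    have hxj : (x i ^ j).1 = c i ^ j • (iF p).mapMatrix (M (n i) ^ j) := by
      rw [Matrix.SpecialLinearGroup.coe_pow, hx, smul_pow, AA_apply, map_pow]
    have hcj : c i ^ j ≠ 0 := pow_ne_zero _ (hc i)
    set B := M (n i) ^ j with hB
    rw [hxj] at h2
    simp only [Matrix.smul_apply, RingHom.mapMatrix_apply, Matrix.map_apply, smul_eq_mul] at h2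
    have hB10 : B 1 0 = 0 := by
      rcases mul_eq_zero.1 h2.1 with h | h
      · exact absurd h hcj
      · exact (map_eq_zero (iF p)).1 h
    have hB01 : B 0 1 = 0 := by
      rcases mul_eq_zero.1 h2.2.1 with h | h
      · exact absurd h hcj
      · exact (map_eq_zero (iF p)).1 h
    have hB00 : B 0 0 = B 1 1 := hinj (mul_left_cancel₀ hcj h2.2.2)
    have hBv := pow_mulVec (M (n i)) (v i) b (heig i) j
    rw [← hB] at hBv
    have hlam : B 0 0 = b ^ j := by
      have h0 := congrFun hBv 0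
      have h1' := congrFun hBv 1
      simp only [Matrix.mulVec, dotProduct, Fin.sum_univ_two, Pi.smul_apply, smul_eq_mul, hB01,
        hB10, zero_mul, add_zero, zero_add] at h0 h1'
      by_cases hv0 : v i 0 = 0
      · have hv1 : v i 1 ≠ 0 := by
          intro hv1; apply hv i; funext r; fin_cases r
          · exact hv0
          · exact hv1
        rw [hB00]
        exact mul_right_cancel₀ hv1 h1'
      · exact mul_right_cancel₀ hv0 h0
    have hdB : B.det = a ^ j := by rw [hB, Matrix.det_pow, hdet]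
    rw [Matrix.det_fin_two, hB01, hB10, mul_zero, sub_zero, ← hB00, hlam] at hdB
    have hfin : a ^ (3 * j) = 1 := by
      calc a ^ (3 * j) = a ^ j * (a ^ j) ^ 2 := by ring
        _ = (b ^ j * b ^ j) * (a ^ j) ^ 2 := by rw [hdB]
        _ = ((a * b) ^ j) ^ 2 := by ring
        _ = 1 := by rw [hab]; simp
    have := orderOf_dvd_of_pow_eq_one hfin
    rwa [ha] at this
  · -- commutation
    intro i j l hij hil hjl hcij hcil hcjl
    obtain ⟨ε, hε, h1⟩ := hpair i j hcij
    obtain ⟨ε', hε', h2⟩ := hpair l j hcjl.symm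
    have e1 := la_comm hab ha3 ha6 (M (n j)) (M (n i)) (v j) (v i) (hv i) (hw j i (Ne.symm hij))
      (heig j) (heig i) (hdet j) (hdet i) ε hε h1
    have e2 := la_comm hab ha3 ha6 (M (n j)) (M (n l)) (v j) (v l) (hv l) (hw j l hjl)
      (heig j) (heig l) (hdet j) (hdet l) ε' hε' h2
    exact la_three ha0 ha3 (M (n j)) (v i) (v l) e1 e2 (hw i l hil) (hdet j)

end Cfsg.Agent.H2.RV
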