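import Mathlib
import Cfsg.Prelude.Def_Transfer
import Cfsg.Agent.Helper55.Extraspecial
import Cfsg.Agent.H2.RVMat

/-!
# Coordinates on an extraspecial group of order `p³` and exponent `p` (helper2)

`ESB p Q` bundles an extraspecial group `Q` of order `p³` and exponent `p` with two non-commuting
elements `x₀, w₀`.  With `z₀ = [x₀, w₀]` we get the coordinate maps `k1, k2 : Q → ZMod p`
(`y ≡ x₀^(k1 y) w₀^(k2 y)` modulo the centre), the commutator formula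
`[y, y'] = z₀ ^ (k1 y * k2 y' - k2 y * k1 y')`, and the homomorphism
`matHom : MulAut Q →* Matrix (Fin 2) (Fin 2) (ZMod p)` (action on `Q / Z(Q)`), with
`σ z₀ = z₀ ^ det (matHom σ)`.
-/

set_option autoImplicit false
set_option linter.unusedSectionVars false
set_option linter.unusedVariables false

namespace Cfsg.Agent.H2.RV

open Matrix

section zp

variable {G : Type*} [Group G] {p : ℕ} [hp : Fact p.Prime]

/-- `z ^ i` for `i : ZMod p`. -/
def zp (z : G) (i : ZMod p) : G := z ^ i.val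

theorem zp_natCast {z : G} (hz : z ^ p = 1) (m : ℕ) : zp z (m : ZMod p) = z ^ m := by
  haveI : NeZero p := ⟨hp.out.ne_zero⟩
  unfold zp
  rw [ZMod.val_natCast]
  exact (pow_eq_pow_mod m hz).symm

theorem zp_add {z : G} (hz : z ^ p = 1) (i j : ZMod p) : zp z (i + j) = zp z i * zp z j := by
  haveI : NeZero p := ⟨hp.out.ne_zero⟩
  unfold zp
  rw [ZMod.val_add, ← pow_add]
  exact (pow_eq_pow_mod _ hz).symm

theorem zp_zero (z : G) : zp z (0 : ZMod p) = 1 := by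
  unfold zp; rw [ZMod.val_zero, pow_zero]

theorem zp_one (z : G) : zp z (1 : ZMod p) = z := by
  haveI : Fact (1 < p) := ⟨hp.out.one_lt⟩
  unfold zp; rw [ZMod.val_one, pow_one]

theorem zp_mul {z : G} (hz : z ^ p = 1) (i j : ZMod p) : zp z (i * j) = zp (zp z i) j := by
  haveI : NeZero p := ⟨hp.out.ne_zero⟩
  unfold zp
  rw [ZMod.val_mul, ← pow_mul]
  exact (pow_eq_pow_mod _ hz).symm

theorem zp_pow_p {z : G} (hz : z ^ p = 1) (i : ZMod p) : (zp z i) ^ p = 1 := by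
  unfold zp; rw [← pow_mul, mul_comm, pow_mul, hz, one_pow]

theorem zp_neg {z : G} (hz : z ^ p = 1) (i : ZMod p) : zp z (-i) = (zp z i)⁻¹ := by
  rw [eq_inv_iff_mul_eq_one, ← zp_add hz, neg_add_cancel, zp_zero]

theorem zp_inj {z : G} (hz : orderOf z = p) {i j : ZMod p} (h : zp z i = zp z j) : i = j := by
  haveI : NeZero p := ⟨hp.out.ne_zero⟩
  unfold zp at h
  have := pow_injOn_Iio_orderOf (x := z) (by rw [hz]; exact ZMod.val_lt i)
    (by rw [hz]; exact ZMod.val_lt j) h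
  exact ZMod.val_injective p this

theorem zp_conj (g z : G) (i : ZMod p) : g * zp z i * g⁻¹ = zp (g * z * g⁻¹) i := by
  unfold zp; rw [conj_pow]

theorem zp_mem {H : Subgroup G} {z : G} (hz : z ∈ H) (i : ZMod p) : zp z i ∈ H :=
  H.pow_mem hz _

theorem zp_intCast {z : G} (hz : z ^ p = 1) (k : ℤ) : zp z (k : ZMod p) = z ^ k := by
  haveI : NeZero p := ⟨hp.out.ne_zero⟩
  unfold zp
  rw [← zpow_natCast, ZMod.val_intCast]
  exact (zpow_eq_zpow_emod' k hz).symm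

theorem zp_map {H : Type*} [Group H] {F : Type*} [FunLike F G H] [MonoidHomClass F G H]
    (f : F) (z : G) (i : ZMod p) : f (zp z i) = zp (f z) i := by
  unfold zp; rw [map_pow]

theorem zp_zp_inv {y : G} (hy : y ^ p = 1) {i : ZMod p} (hi : i ≠ 0) :
    zp (zp y i) i⁻¹ = y := by
  rw [← zp_mul hy, mul_inv_cancel₀ hi, zp_one]

theorem zp_comm {z x : G} (h : z * x = x * z) (i j : ZMod p) :
    zp z i * zp x j = zp x j * zp z i :=
  (Commute.pow_pow (show Commute z x from h) _ _).eq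

theorem zp_mul_comm {z z' : G} (h : z * z' = z' * z) (i : ZMod p) :
    zp (z * z') i = zp z i * zp z' i := by
  unfold zp; exact (show Commute z z' from h).mul_pow _

end zp

/-- An extraspecial group of order `p³` and exponent `p` with two non-commuting elements. -/
structure ESB (p : ℕ) (Q : Type*) [Group Q] where
  x₀ : Q
  w₀ : Q
  hE : Cfsg.IsExtraspecial p Q
  hcard : Nat.card Q = p ^ 3
  hexp : ∀ x : Q, x ^ p = 1
  hne : x₀ * w₀ * x₀⁻¹ * w₀⁻¹ ≠ 1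

namespace ESB

variable {p : ℕ} [hp : Fact p.Prime] {Q : Type*} [Group Q] [Finite Q] (B : ESB p Q)

/-- The generator `[x₀, w₀]` of the centre. -/
def z₀ : Q := B.x₀ * B.w₀ * B.x₀⁻¹ * B.w₀⁻¹

include B in
theorem comm_mem (y y' : Q) : y * y' * y⁻¹ * y'⁻¹ ∈ Subgroup.center Q :=
  Cfsg.Agent.Helper55.es_comm_mem_center B.hE y y'

theorem z₀_mem : B.z₀ ∈ Subgroup.center Q := B.comm_mem _ _

theorem z₀_pow : B.z₀ ^ p = 1 := B.hexp _

theorem orderOf_z₀ : orderOf B.z₀ = p := orderOf_eq_prime (B.hexp _) B.hne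

theorem exists_zp {ζ : Q} (hζ : ζ ∈ Subgroup.center Q) : ∃ i : ZMod p, ζ = zp B.z₀ i := by
  have hc : Nat.card (Subgroup.center Q) = p := B.hE.2
  have hne : (⟨B.z₀, B.z₀_mem⟩ : Subgroup.center Q) ≠ 1 := by
    intro h
    exact B.hne (congrArg Subtype.val h)
  have htop := zpowers_eq_top_of_prime_card hc hne
  have hmem : (⟨ζ, hζ⟩ : Subgroup.center Q) ∈ Subgroup.zpowers
      (⟨B.z₀, B.z₀_mem⟩ : Subgroup.center Q) := by rw [htop]; exact Subgroup.mem_top _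
  obtain ⟨k, hk⟩ := Subgroup.mem_zpowers_iff.1 hmem
  have hk' : B.z₀ ^ k = ζ := by
    have := congrArg Subtype.val hk
    simpa using this
  exact ⟨(k : ZMod p), by rw [zp_intCast B.z₀_pow, hk']⟩

/-- Discrete logarithm on the centre, base `z₀`. -/
noncomputable def lg (ζ : Q) : ZMod p := by
  classical exact if h : ∃ i : ZMod p, ζ = zp B.z₀ i then Classical.choose h else 0

theorem lg_zp (i : ZMod p) : B.lg (zp B.z₀ i) = i := by
  have h : ∃ j : ZMod p, zp B.z₀ i = zp B.z₀ j := ⟨i, rfl⟩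
  unfold lg
  rw [dif_pos h]
  exact (zp_inj B.orderOf_z₀ (Classical.choose_spec h)).symm

theorem zp_lg {ζ : Q} (hζ : ζ ∈ Subgroup.center Q) : zp B.z₀ (B.lg ζ) = ζ := by
  obtain ⟨i, rfl⟩ := B.exists_zp hζ
  rw [B.lg_zp]

theorem lg_mul {ζ ζ' : Q} (hζ : ζ ∈ Subgroup.center Q) (hζ' : ζ' ∈ Subgroup.center Q) :
    B.lg (ζ * ζ') = B.lg ζ + B.lg ζ' := by
  obtain ⟨i, rfl⟩ := B.exists_zp hζ
  obtain ⟨j, rfl⟩ := B.exists_zp hζ'
  rw [← zp_add B.z₀_pow, B.lg_zp, B.lg_zp, B.lg_zp]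

theorem lg_one : B.lg 1 = 0 := by
  have := B.lg_zp 0
  rwa [zp_zero] at this

theorem lg_inv {ζ : Q} (hζ : ζ ∈ Subgroup.center Q) : B.lg ζ⁻¹ = -B.lg ζ := by
  have h := B.lg_mul hζ (Subgroup.inv_mem _ hζ)
  rw [mul_inv_cancel, B.lg_one] at h
  exact eq_neg_of_add_eq_zero_right h.symm

theorem lg_z₀ : B.lg B.z₀ = 1 := by
  have := B.lg_zp 1
  rwa [zp_one] at this

/-- `y ↦ log [y, w]`. -/
noncomputable def cm (w y : Q) : ZMod p := B.lg (y * w * y⁻¹ * w⁻¹)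

theorem cm_mul (w y y' : Q) : B.cm w (y * y') = B.cm w y + B.cm w y' := by
  unfold cm
  rw [← B.lg_mul (B.comm_mem y w) (B.comm_mem y' w)]
  congr 1
  have hc := Subgroup.mem_center_iff.1 (B.comm_mem y' w)
  calc y * y' * w * (y * y')⁻¹ * w⁻¹
      = y * (y' * w * y'⁻¹ * w⁻¹) * (w * y⁻¹ * w⁻¹) := by group
    _ = (y' * w * y'⁻¹ * w⁻¹) * y * (w * y⁻¹ * w⁻¹) := by rw [hc y]
    _ = (y' * w * y'⁻¹ * w⁻¹) * (y * w * y⁻¹ * w⁻¹) := by group
    _ = (y * w * y⁻¹ * w⁻¹) * (y' * w * y'⁻¹ * w⁻¹) := (hc _).symm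

theorem cm_center (w : Q) {y : Q} (hy : y ∈ Subgroup.center Q) : B.cm w y = 0 := by
  unfold cm
  have h := Subgroup.mem_center_iff.1 hy w
  have : y * w * y⁻¹ * w⁻¹ = 1 := by rw [← h]; group
  rw [this, B.lg_one]

theorem cm_one (w : Q) : B.cm w 1 = 0 := B.cm_center w (Subgroup.one_mem _)

theorem cm_inv (w y : Q) : B.cm w y⁻¹ = -B.cm w y := by
  have h := B.cm_mul w y y⁻¹
  rw [mul_inv_cancel, B.cm_one] at h
  exact eq_neg_of_add_eq_zero_right h.symm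

theorem cm_pow (w y : Q) (m : ℕ) : B.cm w (y ^ m) = m * B.cm w y := by
  induction m with
  | zero => simp [B.cm_one]
  | succ m ih => rw [pow_succ, B.cm_mul, ih]; push_cast; ring

theorem cm_swap (w y : Q) : B.cm w y = -B.cm y w := by
  unfold cm
  rw [← B.lg_inv (B.comm_mem w y)]
  congr 1
  group

theorem cm_self (w : Q) : B.cm w w = 0 := by
  unfold cm
  have : w * w * w⁻¹ * w⁻¹ = 1 := by group
  rw [this, B.lg_one]

/-- First coordinate. -/
noncomputable def k1 (y : Q) : ZMod p := B.cm B.w₀ y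

/-- Second coordinate. -/
noncomputable def k2 (y : Q) : ZMod p := -B.cm B.x₀ y

theorem k1_mul (y y' : Q) : B.k1 (y * y') = B.k1 y + B.k1 y' := B.cm_mul _ _ _

theorem k2_mul (y y' : Q) : B.k2 (y * y') = B.k2 y + B.k2 y' := by
  unfold k2; rw [B.cm_mul]; ring

theorem k1_center {y : Q} (hy : y ∈ Subgroup.center Q) : B.k1 y = 0 := B.cm_center _ hy

theorem k2_center {y : Q} (hy : y ∈ Subgroup.center Q) : B.k2 y = 0 := by
  unfold k2; rw [B.cm_center _ hy, neg_zero]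

theorem k1_pow (y : Q) (m : ℕ) : B.k1 (y ^ m) = m * B.k1 y := B.cm_pow _ _ _

theorem k2_pow (y : Q) (m : ℕ) : B.k2 (y ^ m) = m * B.k2 y := by
  unfold k2; rw [B.cm_pow]; ring

theorem k1_inv (y : Q) : B.k1 y⁻¹ = -B.k1 y := B.cm_inv _ _

theorem k2_inv (y : Q) : B.k2 y⁻¹ = -B.k2 y := by
  unfold k2; rw [B.cm_inv]

theorem k1_x₀ : B.k1 B.x₀ = 1 := B.lg_z₀

theorem k1_w₀ : B.k1 B.w₀ = 0 := B.cm_self _

theorem k2_x₀ : B.k2 B.x₀ = 0 := by unfold k2; rw [B.cm_self, neg_zero]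

theorem k2_w₀ : B.k2 B.w₀ = 1 := by
  unfold k2
  rw [B.cm_swap, neg_neg]
  exact B.lg_z₀

theorem k1_zp (y : Q) (i : ZMod p) : B.k1 (zp y i) = i * B.k1 y := by
  have : NeZero p := ⟨hp.out.ne_zero⟩
  unfold zp; rw [B.k1_pow, ZMod.natCast_zmod_val]

theorem k2_zp (y : Q) (i : ZMod p) : B.k2 (zp y i) = i * B.k2 y := by
  have : NeZero p := ⟨hp.out.ne_zero⟩
  unfold zp; rw [B.k2_pow, ZMod.natCast_zmod_val]

/-- The coordinate homomorphism. -/
noncomputable def phi : Q →* Multiplicative (ZMod p × ZMod p) :=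
  MonoidHom.mk' (fun y => Multiplicative.ofAdd (B.k1 y, B.k2 y)) (by
    intro y y'
    rw [B.k1_mul, B.k2_mul]
    rfl)

theorem phi_apply (y : Q) : B.phi y = Multiplicative.ofAdd (B.k1 y, B.k2 y) := rfl

theorem mem_ker_phi {y : Q} : y ∈ B.phi.ker ↔ B.k1 y = 0 ∧ B.k2 y = 0 := by
  rw [MonoidHom.mem_ker, phi_apply]
  constructor
  · intro h
    have h' : (B.k1 y, B.k2 y) = (0, 0) := by
      have := congrArg Multiplicative.toAdd h
      simpa using this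
    exact ⟨congrArg Prod.fst h', congrArg Prod.snd h'⟩
  · rintro ⟨h1, h2⟩
    rw [h1, h2]; rfl

theorem phi_surjective : Function.Surjective B.phi := by
  intro t
  refine ⟨zp B.x₀ (Multiplicative.toAdd t).1 * zp B.w₀ (Multiplicative.toAdd t).2, ?_⟩
  rw [phi_apply, B.k1_mul, B.k2_mul, B.k1_zp, B.k1_zp, B.k2_zp, B.k2_zp, B.k1_x₀, B.k1_w₀,
    B.k2_x₀, B.k2_w₀]
  simp

theorem ker_phi : B.phi.ker = Subgroup.center Q := by
  have hle : Subgroup.center Q ≤ B.phi.ker := fun y hy =>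
    B.mem_ker_phi.2 ⟨B.k1_center hy, B.k2_center hy⟩
  have hp0 : 0 < p := hp.out.pos
  have hcard : Nat.card B.phi.ker = p := by
    have h1 := Subgroup.card_mul_index B.phi.ker
    have h2 : B.phi.ker.index = p * p := by
      rw [Subgroup.index_ker, MonoidHom.range_eq_top.2 B.phi_surjective, Subgroup.card_top]
      show Nat.card (ZMod p × ZMod p) = p * p
      rw [Nat.card_prod, Nat.card_zmod]
    rw [h2, B.hcard] at h1
    have h3 : Nat.card B.phi.ker * (p * p) = p * (p * p) := by rw [h1]; ring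
    exact Nat.eq_of_mul_eq_mul_right (Nat.mul_pos hp0 hp0) h3
  exact (Subgroup.eq_of_le_of_card_ge hle (by rw [hcard, B.hE.2])).symm

theorem mem_center_iff {y : Q} : y ∈ Subgroup.center Q ↔ B.k1 y = 0 ∧ B.k2 y = 0 := by
  rw [← B.ker_phi, B.mem_ker_phi]

theorem decomp (y : Q) :
    ∃ ζ ∈ Subgroup.center Q, y = zp B.x₀ (B.k1 y) * zp B.w₀ (B.k2 y) * ζ := by
  refine ⟨(zp B.x₀ (B.k1 y) * zp B.w₀ (B.k2 y))⁻¹ * y, ?_, by group⟩
  rw [B.mem_center_iff, B.k1_mul, B.k2_mul, B.k1_inv, B.k2_inv, B.k1_mul, B.k2_mul, B.k1_zp,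
    B.k1_zp, B.k2_zp, B.k2_zp, B.k1_x₀, B.k1_w₀, B.k2_x₀, B.k2_w₀]
  constructor <;> ring

theorem cm_zp (w y : Q) (i : ZMod p) : B.cm w (zp y i) = i * B.cm w y := by
  have : NeZero p := ⟨hp.out.ne_zero⟩
  unfold zp; rw [B.cm_pow, ZMod.natCast_zmod_val]

theorem cm_eq (y y' : Q) : B.cm y' y = B.k1 y * B.k2 y' - B.k2 y * B.k1 y' := by
  obtain ⟨ζ, hζ, hy⟩ := B.decomp y
  conv_lhs => rw [hy]
  rw [B.cm_mul, B.cm_mul, B.cm_center _ hζ, B.cm_zp, B.cm_zp, B.cm_swap y' B.x₀,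
    B.cm_swap y' B.w₀]
  unfold k1 k2
  ring

/-- The coordinate vector. -/
noncomputable def pi (y : Q) : Fin 2 → ZMod p := ![B.k1 y, B.k2 y]

theorem comm_eq (y y' : Q) : y * y' * y⁻¹ * y'⁻¹ = zp B.z₀ (wd (B.pi y) (B.pi y')) := by
  have h := B.zp_lg (B.comm_mem y y')
  rw [← h]
  congr 1
  have h2 := B.cm_eq y y'
  unfold cm at h2
  rw [h2]
  simp [wd, pi]

theorem wd_ne_of_not_comm {y y' : Q} (h : y * y' ≠ y' * y) : wd (B.pi y) (B.pi y') ≠ 0 := by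
  intro h0
  apply h
  have h1 := B.comm_eq y y'
  rw [h0, zp_zero] at h1
  calc y * y' = (y * y' * y⁻¹ * y'⁻¹) * (y' * y) := by group
    _ = y' * y := by rw [h1, one_mul]

theorem comm_of_wd {y y' : Q} (h : wd (B.pi y) (B.pi y') = 0) : y * y' = y' * y := by
  by_contra hne; exact B.wd_ne_of_not_comm hne h

theorem wd_of_comm {y y' : Q} (h : y * y' = y' * y) : wd (B.pi y) (B.pi y') = 0 := by
  have h2 := B.comm_eq y y'
  have h1 : y * y' * y⁻¹ * y'⁻¹ = 1 := by rw [h]; group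
  rw [h1, ← zp_zero (p := p) B.z₀] at h2
  exact (zp_inj B.orderOf_z₀ h2).symm

theorem pi_eq_zero {y : Q} : B.pi y = 0 ↔ y ∈ Subgroup.center Q := by
  rw [B.mem_center_iff]
  constructor
  · intro h
    have h0 := congrFun h 0
    have h1 := congrFun h 1
    simp [pi] at h0 h1
    exact ⟨h0, h1⟩
  · rintro ⟨h1, h2⟩
    ext i
    fin_cases i <;> simp [pi, h1, h2]

theorem pi_center {y : Q} (hy : y ∈ Subgroup.center Q) : B.pi y = 0 := B.pi_eq_zero.2 hy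

theorem pi_mul (y y' : Q) : B.pi (y * y') = B.pi y + B.pi y' := by
  ext i
  fin_cases i <;> simp [pi, B.k1_mul, B.k2_mul]

theorem pi_inv (y : Q) : B.pi y⁻¹ = -B.pi y := by
  ext i
  fin_cases i <;> simp [pi, B.k1_inv, B.k2_inv]

theorem pi_zp (y : Q) (i : ZMod p) : B.pi (zp y i) = i • B.pi y := by
  ext j
  fin_cases j <;> simp [pi, B.k1_zp, B.k2_zp]

theorem pi_x₀ : B.pi B.x₀ = ![1, 0] := by
  unfold pi; rw [B.k1_x₀, B.k2_x₀]

theorem pi_w₀ : B.pi B.w₀ = ![0, 1] := by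
  unfold pi; rw [B.k1_w₀, B.k2_w₀]

include B in
/-- Elements commuting with a non-central `x` are of the form `x ^ c * ζ`. -/
theorem exists_of_comm {x y : Q} (hx : x ∉ Subgroup.center Q) (h : y * x = x * y) :
    ∃ c : ZMod p, ∃ ζ ∈ Subgroup.center Q, y = zp x c * ζ := by
  have hw := B.wd_of_comm h
  have hx0 : B.pi x ≠ 0 := fun h0 => hx (B.pi_eq_zero.1 h0)
  obtain ⟨c, hc⟩ := exists_smul_of_wd hw hx0
  refine ⟨c, (zp x c)⁻¹ * y, ?_, by group⟩
  rw [← B.pi_eq_zero, B.pi_mul, B.pi_inv, B.pi_zp, hc]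
  simp

include B in
theorem exists_zp_of {z ζ : Q} (hz : z ∈ Subgroup.center Q) (hz1 : z ≠ 1)
    (hζ : ζ ∈ Subgroup.center Q) : ∃ i : ZMod p, ζ = zp z i := by
  obtain ⟨i₀, rfl⟩ := B.exists_zp hz
  obtain ⟨j, rfl⟩ := B.exists_zp hζ
  have hi : i₀ ≠ 0 := by
    rintro rfl
    exact hz1 (zp_zero _)
  refine ⟨i₀⁻¹ * j, ?_⟩
  rw [← zp_mul B.z₀_pow, ← mul_assoc, mul_inv_cancel₀ hi, one_mul]

include B in
/-- Every central element is a commutator with a given non-central element. -/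
theorem exists_comm_eq {u : Q} (hu : u ∉ Subgroup.center Q) {ζ : Q}
    (hζ : ζ ∈ Subgroup.center Q) : ∃ f : Q, f * u * f⁻¹ * u⁻¹ = ζ := by
  obtain ⟨i, rfl⟩ := B.exists_zp hζ
  have h1 : ∃ f₁ : Q, wd (B.pi f₁) (B.pi u) ≠ 0 := by
    by_cases h2 : B.k2 u = 0
    · have h3 : B.k1 u ≠ 0 := fun h3 => hu (B.mem_center_iff.2 ⟨h3, h2⟩)
      refine ⟨B.w₀, ?_⟩
      rw [B.pi_w₀]
      simpa [wd, pi] using h3
    · refine ⟨B.x₀, ?_⟩
      rw [B.pi_x₀]
      simpa [wd, pi] using h2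
  obtain ⟨f₁, hf₁⟩ := h1
  refine ⟨zp f₁ (i * (wd (B.pi f₁) (B.pi u))⁻¹), ?_⟩
  rw [B.comm_eq, B.pi_zp]
  congr 1
  have h4 := wd_smul (i * (wd (B.pi f₁) (B.pi u))⁻¹) 1 (B.pi f₁) (B.pi u)
  rw [one_smul] at h4
  rw [h4]
  field_simp

/-! ### Automorphisms -/

omit [Finite Q] hp in
theorem aut_center (σ : MulAut Q) {ζ : Q} (hζ : ζ ∈ Subgroup.center Q) :
    σ ζ ∈ Subgroup.center Q := by
  rw [Subgroup.mem_center_iff] at hζ ⊢
  intro g
  have h1 := hζ (σ⁻¹ g)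
  have h2 := congrArg σ h1
  rw [map_mul, map_mul, MulAut.apply_inv_self] at h2
  exact h2

theorem k1_aut (σ : MulAut Q) (y : Q) :
    B.k1 (σ y) = B.k1 (σ B.x₀) * B.k1 y + B.k1 (σ B.w₀) * B.k2 y := by
  obtain ⟨ζ, hζ, hy⟩ := B.decomp y
  conv_lhs => rw [hy]
  rw [map_mul, map_mul, zp_map, zp_map, B.k1_mul, B.k1_mul, B.k1_zp, B.k1_zp,
    B.k1_center (aut_center σ hζ)]
  ring

theorem k2_aut (σ : MulAut Q) (y : Q) :
    B.k2 (σ y) = B.k2 (σ B.x₀) * B.k1 y + B.k2 (σ B.w₀) * B.k2 y := by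
  obtain ⟨ζ, hζ, hy⟩ := B.decomp y
  conv_lhs => rw [hy]
  rw [map_mul, map_mul, zp_map, zp_map, B.k2_mul, B.k2_mul, B.k2_zp, B.k2_zp,
    B.k2_center (aut_center σ hζ)]
  ring

/-- The matrix of an automorphism acting on `Q / Z(Q)`. -/
noncomputable def mat (σ : MulAut Q) : Matrix (Fin 2) (Fin 2) (ZMod p) :=
  !![B.k1 (σ B.x₀), B.k1 (σ B.w₀); B.k2 (σ B.x₀), B.k2 (σ B.w₀)]

theorem pi_aut (σ : MulAut Q) (y : Q) : B.pi (σ y) = B.mat σ *ᵥ B.pi y := by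
  have h1 := B.k1_aut σ y
  have h2 := B.k2_aut σ y
  ext i
  fin_cases i
  · simp [pi, mat, Matrix.mulVec, dotProduct, Fin.sum_univ_two, h1]
  · simp [pi, mat, Matrix.mulVec, dotProduct, Fin.sum_univ_two, h2]

theorem mat_mul (σ τ : MulAut Q) : B.mat (σ * τ) = B.mat σ * B.mat τ := by
  have h1 := B.k1_aut σ (τ B.x₀)
  have h2 := B.k1_aut σ (τ B.w₀)
  have h3 := B.k2_aut σ (τ B.x₀)
  have h4 := B.k2_aut σ (τ B.w₀)
  ext i j
  fin_cases i <;> fin_cases j <;>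
    simp [mat, Matrix.mul_apply, Fin.sum_univ_two, MulAut.mul_apply, h1, h2, h3, h4]

theorem mat_one : B.mat 1 = 1 := by
  ext i j
  fin_cases i <;> fin_cases j <;>
    simp [mat, B.k1_x₀, B.k1_w₀, B.k2_x₀, B.k2_w₀]

/-- `mat` as a monoid homomorphism. -/
noncomputable def matHom : MulAut Q →* Matrix (Fin 2) (Fin 2) (ZMod p) where
  toFun := B.mat
  map_one' := B.mat_one
  map_mul' := B.mat_mul

theorem matHom_apply (σ : MulAut Q) : B.matHom σ = B.mat σ := rfl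

theorem mat_conj (y : Q) : B.mat (MulAut.conj y) = 1 := by
  ext i j
  fin_cases i <;> fin_cases j <;>
    simp [mat, MulAut.conj_apply, B.k1_mul, B.k2_mul, B.k1_inv, B.k2_inv, B.k1_x₀, B.k1_w₀,
      B.k2_x₀, B.k2_w₀]

theorem aut_z₀ (σ : MulAut Q) : σ B.z₀ = zp B.z₀ (B.mat σ).det := by
  have h : σ B.z₀ = σ B.x₀ * σ B.w₀ * (σ B.x₀)⁻¹ * (σ B.w₀)⁻¹ := by
    unfold z₀; simp [map_mul, map_inv]
  rw [h, B.comm_eq]
  congr 1
  simp [wd, pi, mat, Matrix.det_fin_two]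
  ring

theorem det_eq (σ : MulAut Q) {ζ : Q} (hζ : ζ ∈ Subgroup.center Q) (hζ1 : ζ ≠ 1) (a : ZMod p)
    (h : σ ζ = zp ζ a) : (B.mat σ).det = a := by
  obtain ⟨i, rfl⟩ := B.exists_zp hζ
  have hi : i ≠ 0 := by
    rintro rfl
    exact hζ1 (zp_zero _)
  rw [zp_map, B.aut_z₀, ← zp_mul B.z₀_pow, ← zp_mul B.z₀_pow] at h
  have h1 := zp_inj B.orderOf_z₀ h
  have h2 : (B.mat σ).det * i = a * i := by rw [h1, mul_comm]
  exact mul_right_cancel₀ hi h2

theorem eig (σ : MulAut Q) (x : Q) (b : ZMod p) {ζ : Q} (hζ : ζ ∈ Subgroup.center Q)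
    (h : σ x = ζ * zp x b) : B.mat σ *ᵥ B.pi x = b • B.pi x := by
  rw [← B.pi_aut, h, B.pi_mul, B.pi_center hζ, zero_add, B.pi_zp]

end ESB

theorem exists_esb {p : ℕ} [hp : Fact p.Prime] {Q : Type*} [Group Q]
    (hE : Cfsg.IsExtraspecial p Q) (hcard : Nat.card Q = p ^ 3)
    (hexp : Monoid.exponent Q = p) : Nonempty (ESB p Q) := by
  by_contra hne
  have hall : ∀ x w : Q, x * w * x⁻¹ * w⁻¹ = 1 := by
    intro x w
    by_contra h
    exact hne ⟨⟨x, w, hE, hcard, fun y => by rw [← hexp]; exact Monoid.pow_exponent_eq_one y, h⟩⟩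
  have htop : Subgroup.center Q = ⊤ := by
    rw [eq_top_iff]
    intro y _
    rw [Subgroup.mem_center_iff]
    intro g
    have h1 := hall g y
    calc g * y = (g * y * g⁻¹ * y⁻¹) * (y * g) := by group
      _ = y * g := by rw [h1, one_mul]
  have h1 := hE.2
  rw [htop, Subgroup.card_top, hcard] at h1
  have h2 : p ^ 3 = p ^ 1 := by rw [h1, pow_one]
  exact absurd (Nat.pow_right_injective hp.out.two_le h2) (by norm_num)

end Cfsg.Agent.H2.RV
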