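import Mathlib
import Cfsg.Agent.H2.Basic
import Cfsg.Agent.H2.RVES

/-!
# Ruiz–Viruel type bounds: the group theoretic core (helper2)

* `lemT`: the torus element `diag(a, a⁻¹)` as a word in two opposite transvections.
* `lemU`: moving a torus element into `N_G(P)`.
* `core`, `core'`: a bound on the number of pairwise non-commuting "good" elements of an
  extraspecial Sylow subgroup of order `p³` and exponent `p`.
-/

set_option autoImplicit false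
set_option linter.unusedSectionVars false
set_option linter.unusedVariables false

namespace Cfsg.Agent.H2.RV

open Matrix

section LemT

variable {G : Type*} [Group G] {p : ℕ} [hp : Fact p.Prime]

omit hp in
theorem conj_mul_apply (g1 g2 y : G) :
    MulAut.conj (g1 * g2) y = MulAut.conj g1 (MulAut.conj g2 y) := by
  rw [MulAut.conj_apply, MulAut.conj_apply, MulAut.conj_apply]; group

theorem conjE {z x e : G} (hzx : z * x = x * z) (hz : z ^ p = 1)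
    (he1 : e * z * e⁻¹ = z) (he2 : e * x * e⁻¹ = x * z) (n : ℕ) (c : ZMod p)
    (hc : (n : ZMod p) = c) (i j : ZMod p) :
    MulAut.conj (e ^ n) (zp z i * zp x j) = zp z (i + c * j) * zp x j := by
  subst hc
  induction n generalizing i with
  | zero => simp
  | succ n ih =>
    have h1 : MulAut.conj e (zp z i * zp x j) = zp z (i + j) * zp x j := by
      rw [map_mul, zp_map, zp_map, MulAut.conj_apply, MulAut.conj_apply, he1, he2,
        zp_mul_comm hzx.symm, zp_add hz, mul_assoc, zp_comm hzx.symm j j]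
    rw [pow_succ, conj_mul_apply, h1, ih]
    congr 2
    push_cast
    ring

/-- The torus element. -/
theorem lemT {z x e f : G} (hzx : z * x = x * z) (hz : z ^ p = 1) (hx : x ^ p = 1)
    (he1 : e * z * e⁻¹ = z) (he2 : e * x * e⁻¹ = x * z)
    (hf1 : f * x * f⁻¹ = x) (hf2 : f * z * f⁻¹ = z * x) (a b : ZMod p) (hab : a * b = 1) :
    ∃ g : G, g * z * g⁻¹ = zp z a ∧ g * x * g⁻¹ = zp x b := by
  have hE : ∀ (n : ℕ) (c : ZMod p), (n : ZMod p) = c → ∀ i j : ZMod p,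
      MulAut.conj (e ^ n) (zp z i * zp x j) = zp z (i + c * j) * zp x j :=
    fun n c hc i j => conjE hzx hz he1 he2 n c hc i j
  have hF : ∀ (n : ℕ) (c : ZMod p), (n : ZMod p) = c → ∀ i j : ZMod p,
      MulAut.conj (f ^ n) (zp z i * zp x j) = zp z i * zp x (j + c * i) := by
    intro n c hc i j
    have h := conjE hzx.symm hx hf1 hf2 n c hc j i
    rw [zp_comm hzx i j, h, zp_comm hzx i (j + c * i)]
  have hne : NeZero p := ⟨hp.out.ne_zero⟩
  have cA : ((a.val : ℕ) : ZMod p) = a := ZMod.natCast_zmod_val a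
  have cC : ((p - 1 : ℕ) : ZMod p) = -1 := by
    rw [Nat.cast_sub hp.out.one_le, ZMod.natCast_self]; simp
  have cB : (((p - 1) * b.val : ℕ) : ZMod p) = -b := by
    rw [Nat.cast_mul, cC, ZMod.natCast_zmod_val]; ring
  have c1 : ((1 : ℕ) : ZMod p) = 1 := Nat.cast_one
  have key : ∀ i j i' j' : ZMod p, i = i' → j = j' →
      zp z i * zp x j = zp z i' * zp x j' := by
    rintro _ _ _ _ rfl rfl; rfl
  refine ⟨e ^ a.val * f ^ ((p - 1) * b.val) * e ^ a.val * e ^ (p - 1) * f ^ 1 * e ^ (p - 1),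
    ?_, ?_⟩
  · have h0 : z = zp z (1 : ZMod p) * zp x (0 : ZMod p) := by rw [zp_one, zp_zero, mul_one]
    have h1 : zp z a = zp z a * zp x (0 : ZMod p) := by rw [zp_zero, mul_one]
    rw [← MulAut.conj_apply, h1]
    conv_lhs => rw [h0]
    rw [conj_mul_apply, conj_mul_apply, conj_mul_apply, conj_mul_apply, conj_mul_apply,
      hE _ _ cC, hF _ _ c1, hE _ _ cC, hE _ _ cA, hF _ _ cB, hE _ _ cA]
    apply key
    · linear_combination (-a) * hab
    · linear_combination (-1 : ZMod p) * hab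
  · have h0 : x = zp z (0 : ZMod p) * zp x (1 : ZMod p) := by rw [zp_one, zp_zero, one_mul]
    have h1 : zp x b = zp z (0 : ZMod p) * zp x b := by rw [zp_zero, one_mul]
    rw [← MulAut.conj_apply, h1]
    conv_lhs => rw [h0]
    rw [conj_mul_apply, conj_mul_apply, conj_mul_apply, conj_mul_apply, conj_mul_apply,
      hE _ _ cC, hF _ _ c1, hE _ _ cC, hE _ _ cA, hF _ _ cB, hE _ _ cA]
    apply key
    · linear_combination hab
    · ring

end LemT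

section Core

variable {G : Type*} [Group G] [Finite G] {p : ℕ} [hp : Fact p.Prime]

/-- Moving a torus element into the normalizer of the Sylow subgroup. -/
theorem lemU (P : Sylow p G) (Z : Subgroup G) (x : G) (hx : x ∈ (P : Subgroup G))
    (hZc : ∀ ζ ∈ Z, ∀ y ∈ (P : Subgroup G), y * ζ = ζ * y)
    (hcomm : ∀ y ∈ (P : Subgroup G), ∀ y' ∈ (P : Subgroup G), y * y' * y⁻¹ * y'⁻¹ ∈ Z)
    (hZp : ∀ ζ ∈ Z, ζ ^ p = 1) (hxp : x ^ p = 1)
    (a b : ZMod p) (hab : a * b = 1) (g : G)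
    (hgZ : ∀ ζ ∈ Z, g * ζ * g⁻¹ = zp ζ a) (hgx : g * x * g⁻¹ = zp x b) :
    ∃ n ∈ Subgroup.normalizer ((P : Subgroup G) : Set G),
      (∀ ζ ∈ Z, n * ζ * n⁻¹ = zp ζ a) ∧ ∃ ζ' ∈ Z, n * x * n⁻¹ = ζ' * zp x b := by
  classical
  let K : Subgroup G :=
    { carrier := {k | (∀ ζ ∈ Z, k * ζ * k⁻¹ = ζ) ∧ k * x * k⁻¹ * x⁻¹ ∈ Z}
      one_mem' := ⟨fun ζ _ => by group, by simp⟩
      mul_mem' := by
        rintro k k' ⟨h1, h2⟩ ⟨h1', h2'⟩
        refine ⟨fun ζ hζ => ?_, ?_⟩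
        · calc k * k' * ζ * (k * k')⁻¹ = k * (k' * ζ * k'⁻¹) * k⁻¹ := by group
            _ = ζ := by rw [h1' ζ hζ, h1 ζ hζ]
        · have e1 : k * k' * x * (k * k')⁻¹ * x⁻¹ =
              (k * (k' * x * k'⁻¹ * x⁻¹) * k⁻¹) * (k * x * k⁻¹ * x⁻¹) := by group
          rw [e1, h1 _ h2']
          exact Z.mul_mem h2' h2
      inv_mem' := by
        rintro k ⟨h1, h2⟩
        have h3 : ∀ ζ ∈ Z, k⁻¹ * ζ * k⁻¹⁻¹ = ζ := by
          intro ζ hζ
          calc k⁻¹ * ζ * k⁻¹⁻¹ = k⁻¹ * (k * ζ * k⁻¹) * k := by rw [h1 ζ hζ, inv_inv]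
            _ = ζ := by group
        refine ⟨h3, ?_⟩
        have e1 : k⁻¹ * x * k⁻¹⁻¹ * x⁻¹ = (k⁻¹ * (k * x * k⁻¹ * x⁻¹) * k⁻¹⁻¹)⁻¹ := by group
        rw [e1, h3 _ h2]
        exact Z.inv_mem h2 }
  have hPK : (P : Subgroup G) ≤ K := by
    intro y hy
    show (∀ ζ ∈ Z, y * ζ * y⁻¹ = ζ) ∧ y * x * y⁻¹ * x⁻¹ ∈ Z
    refine ⟨fun ζ hζ => ?_, hcomm y hy x hx⟩
    rw [hZc ζ hζ y hy]; group
  have hba : b * a = 1 := by rw [mul_comm]; exact hab
  have hginvZ : ∀ ζ ∈ Z, g⁻¹ * ζ * g = zp ζ b := by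
    intro ζ hζ
    have h1 : g * zp ζ b * g⁻¹ = ζ := by
      rw [zp_conj, hgZ ζ hζ, ← zp_mul (hZp ζ hζ), hab, zp_one]
    calc g⁻¹ * ζ * g = g⁻¹ * (g * zp ζ b * g⁻¹) * g := by rw [h1]
      _ = zp ζ b := by group
  have hginvx : g⁻¹ * x * g = zp x a := by
    have h1 : g * zp x a * g⁻¹ = x := by
      rw [zp_conj, hgx, ← zp_mul hxp, hba, zp_one]
    calc g⁻¹ * x * g = g⁻¹ * (g * zp x a * g⁻¹) * g := by rw [h1]
      _ = zp x a := by group
  have hSK : ((g • P : Sylow p G) : Subgroup G) ≤ K := by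
    intro q hq
    have hq' : g⁻¹ * q * g ∈ (P : Subgroup G) := mem_sylow_smul.1 hq
    have hqy : q = g * (g⁻¹ * q * g) * g⁻¹ := by group
    rw [hqy]
    generalize g⁻¹ * q * g = y at hq'
    show (∀ ζ ∈ Z, g * y * g⁻¹ * ζ * (g * y * g⁻¹)⁻¹ = ζ) ∧
      g * y * g⁻¹ * x * (g * y * g⁻¹)⁻¹ * x⁻¹ ∈ Z
    refine ⟨fun ζ hζ => ?_, ?_⟩
    · have hc := hZc (zp ζ b) (zp_mem hζ b) y hq'
      calc g * y * g⁻¹ * ζ * (g * y * g⁻¹)⁻¹
          = g * (y * (g⁻¹ * ζ * g)) * y⁻¹ * g⁻¹ := by group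
        _ = g * (zp ζ b * y) * y⁻¹ * g⁻¹ := by rw [hginvZ ζ hζ, hc]
        _ = g * zp ζ b * g⁻¹ := by group
        _ = ζ := by rw [zp_conj, hgZ ζ hζ, ← zp_mul (hZp ζ hζ), hab, zp_one]
    · have hc := hcomm y hq' (zp x a) (zp_mem hx a)
      have e1 : g * y * g⁻¹ * x * (g * y * g⁻¹)⁻¹ * x⁻¹ =
          g * (y * (g⁻¹ * x * g) * y⁻¹ * (g⁻¹ * x * g)⁻¹) * g⁻¹ := by group
      rw [e1, hginvx, hgZ _ hc]
      exact zp_mem hc a
  obtain ⟨c, hcK, hc⟩ :=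
    exists_conj_le_sylow_of_le (g • P) K (P : Subgroup G) hSK P.isPGroup' hPK
  have hn0 : g⁻¹ * c ∈ Subgroup.normalizer ((P : Subgroup G) : Set G) := by
    apply Subgroup.mem_normalizer_fintype
    intro q hq
    have h1 : g⁻¹ * (c * q * c⁻¹) * g ∈ (P : Subgroup G) := mem_sylow_smul.1 (hc q hq)
    have e : g⁻¹ * c * q * (g⁻¹ * c)⁻¹ = g⁻¹ * (c * q * c⁻¹) * g := by group
    rw [e]; exact h1
  have hn : c⁻¹ * g ∈ Subgroup.normalizer ((P : Subgroup G) : Set G) := by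
    have h1 := Subgroup.inv_mem _ hn0
    have e : (g⁻¹ * c)⁻¹ = c⁻¹ * g := by group
    rwa [e] at h1
  have hcinv : (∀ ζ ∈ Z, c⁻¹ * ζ * c⁻¹⁻¹ = ζ) ∧ c⁻¹ * x * c⁻¹⁻¹ * x⁻¹ ∈ Z := K.inv_mem hcK
  obtain ⟨hk1, hk2⟩ := hcinv
  refine ⟨c⁻¹ * g, hn, fun ζ hζ => ?_, ?_⟩
  · calc c⁻¹ * g * ζ * (c⁻¹ * g)⁻¹ = c⁻¹ * (g * ζ * g⁻¹) * c⁻¹⁻¹ := by group
      _ = zp ζ a := by rw [hgZ ζ hζ, hk1 _ (zp_mem hζ a)]
  · have hdx : c⁻¹ * x * c⁻¹⁻¹ = (c⁻¹ * x * c⁻¹⁻¹ * x⁻¹) * x := by group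
    have hdcomm : (c⁻¹ * x * c⁻¹⁻¹ * x⁻¹) * x = x * (c⁻¹ * x * c⁻¹⁻¹ * x⁻¹) :=
      (hZc _ hk2 x hx).symm
    refine ⟨zp (c⁻¹ * x * c⁻¹⁻¹ * x⁻¹) b, zp_mem hk2 b, ?_⟩
    calc c⁻¹ * g * x * (c⁻¹ * g)⁻¹ = c⁻¹ * (g * x * g⁻¹) * c⁻¹⁻¹ := by group
      _ = zp (c⁻¹ * x * c⁻¹⁻¹) b := by rw [hgx, zp_conj]
      _ = zp (c⁻¹ * x * c⁻¹⁻¹ * x⁻¹) b * zp x b := by
          conv_lhs => rw [hdx]
          rw [zp_mul_comm hdcomm]

/-- The action of `N_G(P)` on `P / Z(P)` in coordinates. -/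
noncomputable def MN (P : Sylow p G) (B : ESB p ↥(P : Subgroup G)) :
    ↥(Subgroup.normalizer ((P : Subgroup G) : Set G)) →* Matrix (Fin 2) (Fin 2) (ZMod p) :=
  B.matHom.comp (P : Subgroup G).normalizerMonoidHom

theorem MN_apply (P : Sylow p G) (B : ESB p ↥(P : Subgroup G))
    (n : ↥(Subgroup.normalizer ((P : Subgroup G) : Set G))) :
    MN P B n = B.mat ((P : Subgroup G).normalizerMonoidHom n) := rfl

theorem nmh_coe (P : Sylow p G) (n : ↥(Subgroup.normalizer ((P : Subgroup G) : Set G)))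
    (y : ↥(P : Subgroup G)) :
    (((P : Subgroup G).normalizerMonoidHom n y : ↥(P : Subgroup G)) : G) = n * y * (n : G)⁻¹ :=
  rfl

theorem coe_zp (H : Subgroup G) (y : ↥H) (i : ZMod p) : ((zp y i : ↥H) : G) = zp (y : G) i := by
  unfold zp; rw [Subgroup.coe_pow]

theorem MN_pow (P : Sylow p G) (B : ESB p ↥(P : Subgroup G))
    (n : ↥(Subgroup.normalizer ((P : Subgroup G) : Set G))) :
    MN P B n ^ ((P : Subgroup G).relIndex (Subgroup.normalizer ((P : Subgroup G) : Set G))) = 1 := by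
  rw [← map_pow]
  have hmem : ((n ^ ((P : Subgroup G).relIndex (Subgroup.normalizer ((P : Subgroup G) : Set G))) :
      ↥(Subgroup.normalizer ((P : Subgroup G) : Set G))) : G) ∈ (P : Subgroup G) := by
    have h1 := Subgroup.pow_index_mem
      ((P : Subgroup G).subgroupOf (Subgroup.normalizer ((P : Subgroup G) : Set G))) n
    exact Subgroup.mem_subgroupOf.1 h1
  have h2 : (P : Subgroup G).normalizerMonoidHom
      (n ^ ((P : Subgroup G).relIndex (Subgroup.normalizer ((P : Subgroup G) : Set G)))) =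
      MulAut.conj ⟨_, hmem⟩ := by
    ext y
    rfl
  rw [MN_apply, h2, B.mat_conj]

theorem exists_gen : ∃ a b : ZMod p, a * b = 1 ∧ orderOf a = p - 1 := by
  obtain ⟨u, hu⟩ := IsCyclic.exists_generator (α := (ZMod p)ˣ)
  refine ⟨(u : ZMod p), ((u⁻¹ : (ZMod p)ˣ) : ZMod p), Units.mul_inv u, ?_⟩
  rw [orderOf_units, orderOf_eq_card_of_forall_mem_zpowers hu, Nat.card_eq_fintype_card,
    ZMod.card_units]

/-- The core bound, in terms of torus elements. -/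
theorem core (hp7 : 7 < p) (P : Sylow p G) (B : ESB p ↥(P : Subgroup G))
    (a b : ZMod p) (hab : a * b = 1) (ha : orderOf a = p - 1)
    {ι : Type*} (x : ι → ↥(P : Subgroup G)) (hx : ∀ i j, i ≠ j → x i * x j ≠ x j * x i)
    (hx' : ∀ i, x i ∉ Subgroup.center ↥(P : Subgroup G))
    (hT : ∀ i, ∃ g : G,
      (∀ ζ ∈ Subgroup.center ↥(P : Subgroup G), g * (ζ : G) * g⁻¹ = zp (ζ : G) a) ∧
        g * (x i : G) * g⁻¹ = zp (x i : G) b) :
    (∀ i j l : ι, i ≠ j → i ≠ l → j ≠ l → p = 13) ∧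
      (∀ f : Fin 7 → ι, Function.Injective f → False) := by
  have hU : ∀ i, ∃ n : ↥(Subgroup.normalizer ((P : Subgroup G) : Set G)),
      (∀ ζ ∈ Subgroup.center ↥(P : Subgroup G),
        (n : G) * (ζ : G) * (n : G)⁻¹ = zp (ζ : G) a) ∧
      ∃ ζ' ∈ Subgroup.center ↥(P : Subgroup G),
        (n : G) * (x i : G) * (n : G)⁻¹ = (ζ' : G) * zp (x i : G) b := by
    intro i
    obtain ⟨g, hg1, hg2⟩ := hT i
    obtain ⟨n, hn, h1, ζ', hζ', h2⟩ := lemU P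
      ((Subgroup.center ↥(P : Subgroup G)).map (P : Subgroup G).subtype) (x i : G) (x i).2
      (by
        rintro _ ⟨ζ, hζ, rfl⟩ y hy
        exact congrArg Subtype.val (Subgroup.mem_center_iff.1 hζ ⟨y, hy⟩))
      (by
        intro y hy y' hy'
        exact ⟨_, B.comm_mem ⟨y, hy⟩ ⟨y', hy'⟩, rfl⟩)
      (by
        rintro _ ⟨ζ, hζ, rfl⟩
        exact congrArg Subtype.val (B.hexp ζ))
      (congrArg Subtype.val (B.hexp (x i))) a b hab g
      (by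
        rintro _ ⟨ζ, hζ, rfl⟩
        exact hg1 ζ hζ) hg2
    obtain ⟨ζ'', hζ'', rfl⟩ := hζ'
    exact ⟨⟨n, hn⟩, fun ζ hζ => h1 _ ⟨ζ, hζ, rfl⟩, ζ'', hζ'', h2⟩
  choose n hn1 ζ' hζ' hn2 using hU
  have hk : ¬ p ∣ (P : Subgroup G).relIndex (Subgroup.normalizer ((P : Subgroup G) : Set G)) :=
    fun h => P.not_dvd_index (h.trans (Subgroup.relIndex_dvd_index_of_le Subgroup.le_normalizer))
  refine mat_bound p hp7 (MN P B) _ hk (MN_pow P B) a b hab ha n (fun i => B.pi (x i))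
    ?_ ?_ ?_ ?_
  · intro i j hij
    exact B.wd_ne_of_not_comm (hx i j hij)
  · intro i h
    exact hx' i (B.pi_eq_zero.1 h)
  · intro i
    apply B.eig _ (x i) b (hζ' i)
    apply Subtype.ext
    rw [nmh_coe, hn2 i, Subgroup.coe_mul, coe_zp]
  · intro i
    apply B.det_eq _ B.z₀_mem B.hne a
    apply Subtype.ext
    rw [nmh_coe, hn1 i _ B.z₀_mem, coe_zp]

/-- The core bound, in terms of pairs of opposite transvections. -/
theorem core' (hp7 : 7 < p) (P : Sylow p G) (B : ESB p ↥(P : Subgroup G))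
    {ι : Type*} (x : ι → ↥(P : Subgroup G)) (hx : ∀ i j, i ≠ j → x i * x j ≠ x j * x i)
    (hx' : ∀ i, x i ∉ Subgroup.center ↥(P : Subgroup G))
    (hT : ∀ i, ∃ z ∈ Subgroup.center ↥(P : Subgroup G), z ≠ 1 ∧ ∃ e f : G,
        e * (z : G) * e⁻¹ = z ∧ e * (x i : G) * e⁻¹ = x i * z ∧ f * (x i : G) * f⁻¹ = x i ∧
        f * (z : G) * f⁻¹ = z * x i) :
    (∀ i j l : ι, i ≠ j → i ≠ l → j ≠ l → p = 13) ∧
      (∀ f : Fin 7 → ι, Function.Injective f → False) := by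
  obtain ⟨a, b, hab, ha⟩ := exists_gen (p := p)
  refine core hp7 P B a b hab ha x hx hx' (fun i => ?_)
  obtain ⟨z, hz, hz1, e, f, he1, he2, hf1, hf2⟩ := hT i
  have hzx : (z : G) * (x i : G) = x i * z :=
    congrArg Subtype.val (Subgroup.mem_center_iff.1 hz (x i)).symm
  have hzp : (z : G) ^ p = 1 := congrArg Subtype.val (B.hexp z)
  have hxp : (x i : G) ^ p = 1 := congrArg Subtype.val (B.hexp (x i))
  obtain ⟨g, hg1, hg2⟩ := lemT hzx hzp hxp he1 he2 hf1 hf2 a b hab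
  refine ⟨g, fun ζ hζ => ?_, hg2⟩
  obtain ⟨j, rfl⟩ := B.exists_zp_of hz hz1 hζ
  rw [coe_zp, zp_conj, hg1, ← zp_mul hzp, ← zp_mul hzp, mul_comm a j]

end Core

end Cfsg.Agent.H2.RV
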