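import Mathlib
import Cfsg.Agent.H2.RVG

/-!
# An extraspecial Sylow subgroup of order `p³`, exponent `p`, with three planes on which
`G` induces `SL₂(p)` forces `p ≤ 13` (helper2)
-/

set_option autoImplicit false
set_option linter.unusedSectionVars false
set_option linter.unusedVariables false

namespace Cfsg.Agent.H2.RV

open Matrix

section Transv

variable {A : Type*} [Group A] {p : ℕ} [hp : Fact p.Prime]

/-- The transvection `x ↦ x`, `z ↦ z * x` on an abelian group of order `p²` with basis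
`x, z`. -/
theorem exists_transvection (hcomm : ∀ a b : A, a * b = b * a) (hcard : Nat.card A = p ^ 2)
    (x z : A) (hx : x ^ p = 1) (hz : z ^ p = 1)
    (hind : ∀ c d : ZMod p, zp x c * zp z d = 1 → c = 0 ∧ d = 0) :
    ∃ φ : MulAut A, orderOf φ = p ∧ φ x = x ∧ φ z = z * x := by
  classical
  have hne : NeZero p := ⟨hp.out.ne_zero⟩
  have hfin : Finite A := Nat.finite_of_card_ne_zero (by
    rw [hcard]; exact pow_ne_zero _ hp.out.ne_zero)
  obtain ⟨ψ, hψ⟩ : ∃ ψ : ZMod p × ZMod p → A, ∀ t, ψ t = zp x t.1 * zp z t.2 :=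
    ⟨_, fun _ => rfl⟩
  have mmmc : ∀ a b c d : A, a * b * (c * d) = a * c * (b * d) := by
    intro a b c d
    calc a * b * (c * d) = a * (b * c) * d := by group
      _ = a * (c * b) * d := by rw [hcomm b c]
      _ = a * c * (b * d) := by group
  have hψadd : ∀ s t, ψ (s + t) = ψ s * ψ t := by
    intro s t
    rw [hψ, hψ, hψ, Prod.fst_add, Prod.snd_add, zp_add hx, zp_add hz]
    exact mmmc _ _ _ _
  have hψinj : Function.Injective ψ := by
    intro s t hst
    have h1 : ψ (s - t) = 1 := by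
      have h2 := hψadd (s - t) t
      rw [sub_add_cancel, hst] at h2
      exact right_eq_mul.1 h2
    rw [hψ] at h1
    obtain ⟨h2, h3⟩ := hind _ _ h1
    have h4 : s - t = 0 := Prod.ext h2 h3
    exact sub_eq_zero.1 h4
  have hψbij : Function.Bijective ψ := by
    rw [Nat.bijective_iff_injective_and_card]
    refine ⟨hψinj, ?_⟩
    rw [Nat.card_prod, Nat.card_zmod, hcard, sq]
  obtain ⟨E, hE⟩ : ∃ E : ZMod p × ZMod p ≃ A, ∀ t, E t = ψ t :=
    ⟨Equiv.ofBijective ψ hψbij, fun _ => rfl⟩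
  have hEadd : ∀ s t, E (s + t) = E s * E t := by
    intro s t
    rw [hE, hE, hE, hψadd]
  have hEsymm : ∀ a b : A, E.symm (a * b) = E.symm a + E.symm b := by
    intro a b
    apply E.injective
    rw [hEadd, E.apply_symm_apply, E.apply_symm_apply, E.apply_symm_apply]
  obtain ⟨T, hT⟩ : ∃ T : ZMod p × ZMod p → ZMod p × ZMod p, ∀ t, T t = (t.1 + t.2, t.2) :=
    ⟨_, fun _ => rfl⟩
  obtain ⟨T', hT'⟩ : ∃ T' : ZMod p × ZMod p → ZMod p × ZMod p, ∀ t, T' t = (t.1 - t.2, t.2) :=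
    ⟨_, fun _ => rfl⟩
  have hTT' : ∀ t, T (T' t) = t := by
    intro t
    rw [hT, hT']
    ext <;> simp
  have hT'T : ∀ t, T' (T t) = t := by
    intro t
    rw [hT', hT]
    ext <;> simp
  have hTadd : ∀ s t, T (s + t) = T s + T t := by
    intro s t
    rw [hT, hT, hT]
    ext
    · simp only [Prod.fst_add, Prod.snd_add]; ring
    · simp only [Prod.snd_add]
  obtain ⟨φ, hφ⟩ : ∃ φ : MulAut A, ∀ a, φ a = E (T (E.symm a)) :=
    ⟨{ toFun := fun a => E (T (E.symm a))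
       invFun := fun a => E (T' (E.symm a))
       left_inv := fun a => by simp [hT'T]
       right_inv := fun a => by simp [hTT']
       map_mul' := fun a b => by rw [hEsymm, hTadd, hEadd] }, fun _ => rfl⟩
  have hφE : ∀ t, φ (E t) = E (T t) := by
    intro t
    rw [hφ, E.symm_apply_apply]
  have hφpow : ∀ (n : ℕ) (t : ZMod p × ZMod p), (φ ^ n) (E t) = E (t.1 + n * t.2, t.2) := by
    intro n
    induction n with
    | zero => intro t; simp
    | succ n ih =>
      intro t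
      rw [pow_succ, MulAut.mul_apply, hφE, ih, hT]
      congr 1
      ext
      · simp only; push_cast; ring
      · simp only
  have hEx : E (1, 0) = x := by rw [hE, hψ]; simp [zp_one, zp_zero]
  have hEz : E (0, 1) = z := by rw [hE, hψ]; simp [zp_one, zp_zero]
  have hx1 : x ≠ 1 := by
    intro h
    have h2 := hind 1 0 (by rw [zp_one, zp_zero, mul_one, h])
    exact one_ne_zero h2.1
  have hφx : φ x = x := by
    have h1 := hφE (1, 0)
    rw [hT, hEx] at h1
    rw [h1]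
    have h2 : ((1 : ZMod p) + 0, (0 : ZMod p)) = (1, 0) := by rw [add_zero]
    rw [h2, hEx]
  have hφz : φ z = z * x := by
    have h1 := hφE (0, 1)
    rw [hT, hEz] at h1
    rw [h1]
    have h2 : ((0 : ZMod p) + 1, (1 : ZMod p)) = (0, 1) + (1, 0) := by
      ext <;> simp
    rw [h2, hEadd, hEz, hEx]
  refine ⟨φ, ?_, hφx, hφz⟩
  apply orderOf_eq_prime
  · ext a
    obtain ⟨t, rfl⟩ := E.surjective a
    rw [hφpow, MulAut.one_apply]
    congr 1
    ext <;> simp
  · intro h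
    have h2 : φ z = z := by rw [h, MulAut.one_apply]
    rw [hφz] at h2
    exact hx1 (mul_eq_left.1 h2)

end Transv

section Plane

variable {G : Type*} [Group G] [Finite G] {p : ℕ} [hp : Fact p.Prime]

/-- A subgroup of order `p²` of `P` contains the centre of `P`. -/
theorem plane_center (P : Sylow p G) (B : ESB p ↥(P : Subgroup G)) (A : Subgroup G)
    (hAP : A ≤ (P : Subgroup G)) (hAcard : Nat.card ↥A = p ^ 2) :
    ∀ ζ ∈ Subgroup.center ↥(P : Subgroup G), (ζ : G) ∈ A := by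
  have hAcomm : ∀ a b : ↥A, a * b = b * a := fun a b =>
    (IsPGroup.isMulCommutative_of_card_eq_prime_sq hAcard).is_comm.comm a b
  suffices h : (B.z₀ : G) ∈ A by
    intro ζ hζ
    obtain ⟨i, rfl⟩ := B.exists_zp hζ
    rw [coe_zp]
    exact zp_mem h i
  by_contra hz
  have hinj : Function.Injective (fun t : ↥A × ZMod p =>
      (⟨t.1, hAP t.1.2⟩ : ↥(P : Subgroup G)) * zp B.z₀ t.2) := by
    rintro ⟨a, i⟩ ⟨a', i'⟩ h
    simp only at h
    have h2 : zp B.z₀ (i - i') =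
        (⟨a, hAP a.2⟩ : ↥(P : Subgroup G))⁻¹ * ⟨a', hAP a'.2⟩ := by
      rw [sub_eq_add_neg, zp_add B.z₀_pow, zp_neg B.z₀_pow, eq_inv_mul_iff_mul_eq, ← mul_assoc,
        h, mul_assoc, mul_inv_cancel, mul_one]
    have h1 : ((zp B.z₀ (i - i') : ↥(P : Subgroup G)) : G) = (a : G)⁻¹ * a' := by
      rw [h2]; rfl
    have hii : i = i' := by
      by_contra hne
      have hne' : i - i' ≠ 0 := sub_ne_zero.2 hne
      apply hz
      have h3 : ((zp B.z₀ (i - i') : ↥(P : Subgroup G)) : G) ∈ A := by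
        rw [h1]; exact A.mul_mem (A.inv_mem a.2) a'.2
      have h4 := zp_mem h3 (i - i')⁻¹
      rw [← coe_zp, zp_zp_inv B.z₀_pow hne'] at h4
      exact h4
    subst hii
    have h5 : (⟨a, hAP a.2⟩ : ↥(P : Subgroup G)) = ⟨a', hAP a'.2⟩ := mul_right_cancel h
    have h6 : (a : G) = a' := Subtype.mk_eq_mk.1 h5
    exact Prod.ext (Subtype.ext h6) rfl
  have hbij := (Nat.bijective_iff_injective_and_card _).2 ⟨hinj, by
    rw [Nat.card_prod, Nat.card_zmod, hAcard, B.hcard]; ring⟩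
  obtain ⟨⟨a, i⟩, ha⟩ := hbij.2 B.x₀
  obtain ⟨⟨a', i'⟩, ha'⟩ := hbij.2 B.w₀
  simp only at ha ha'
  apply B.hne
  have hcz : ∀ (i : ZMod p) (q : ↥(P : Subgroup G)), q * zp B.z₀ i = zp B.z₀ i * q :=
    fun i q => Subgroup.mem_center_iff.1 (zp_mem B.z₀_mem i) q
  have haa : (⟨a, hAP a.2⟩ : ↥(P : Subgroup G)) * ⟨a', hAP a'.2⟩ =
      ⟨a', hAP a'.2⟩ * ⟨a, hAP a.2⟩ :=
    Subtype.ext (show (a : G) * a' = a' * a from
      congrArg (fun t : ↥A => (t : G)) (hAcomm a a'))
  have hc : B.x₀ * B.w₀ = B.w₀ * B.x₀ := by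
    rw [← ha, ← ha']
    generalize (⟨a, hAP a.2⟩ : ↥(P : Subgroup G)) = u at haa ⊢
    generalize (⟨a', hAP a'.2⟩ : ↥(P : Subgroup G)) = v at haa ⊢
    calc u * zp B.z₀ i * (v * zp B.z₀ i') = u * (zp B.z₀ i * v) * zp B.z₀ i' := by group
      _ = u * (v * zp B.z₀ i) * zp B.z₀ i' := by rw [← hcz i v]
      _ = (u * v) * (zp B.z₀ i * zp B.z₀ i') := by group
      _ = (v * u) * (zp B.z₀ i' * zp B.z₀ i) := by rw [haa, ← hcz i' (zp B.z₀ i)]
      _ = v * (u * zp B.z₀ i') * zp B.z₀ i := by group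
      _ = v * (zp B.z₀ i' * u) * zp B.z₀ i := by rw [hcz i' u]
      _ = v * zp B.z₀ i' * (u * zp B.z₀ i) := by group
  rw [hc]; group

/-- A plane is the centralizer of each of its non-central elements. -/
theorem plane_comm (P : Sylow p G) (B : ESB p ↥(P : Subgroup G)) (A : Subgroup G)
    (hAP : A ≤ (P : Subgroup G)) (hAcard : Nat.card ↥A = p ^ 2)
    (x : ↥(P : Subgroup G)) (hxA : (x : G) ∈ A) (hx : x ∉ Subgroup.center ↥(P : Subgroup G))
    (y : ↥(P : Subgroup G)) : y * x = x * y ↔ (y : G) ∈ A := by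
  constructor
  · intro h
    obtain ⟨c, ζ, hζ, rfl⟩ := B.exists_of_comm hx h
    rw [Subgroup.coe_mul, coe_zp]
    exact A.mul_mem (zp_mem hxA c) (plane_center P B A hAP hAcard ζ hζ)
  · intro hy
    have h1 := (IsPGroup.isMulCommutative_of_card_eq_prime_sq hAcard).is_comm.comm
      (⟨y, hy⟩ : ↥A) ⟨x, hxA⟩
    exact Subtype.ext (show (y : G) * x = x * y from congrArg (fun t : ↥A => (t : G)) h1)

/-- A plane contains a non-central element. -/
theorem plane_exists (P : Sylow p G) (B : ESB p ↥(P : Subgroup G)) (A : Subgroup G)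
    (hAP : A ≤ (P : Subgroup G)) (hAcard : Nat.card ↥A = p ^ 2) :
    ∃ x : ↥(P : Subgroup G), (x : G) ∈ A ∧ x ∉ Subgroup.center ↥(P : Subgroup G) := by
  by_contra h
  push Not at h
  have hinj : Function.Injective (fun a : ↥A =>
      (⟨⟨a, hAP a.2⟩, h ⟨a, hAP a.2⟩ a.2⟩ : ↥(Subgroup.center ↥(P : Subgroup G)))) := by
    intro a a' haa
    have h1 := congrArg
      (fun t : ↥(Subgroup.center ↥(P : Subgroup G)) => ((t : ↥(P : Subgroup G)) : G)) haa
    exact Subtype.ext h1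
  have hle := Nat.card_le_card_of_injective _ hinj
  rw [hAcard, B.hE.2] at hle
  have h1 := hp.out.one_lt
  nlinarith

theorem exists_e (P : Sylow p G) (B : ESB p ↥(P : Subgroup G)) (y : ↥(P : Subgroup G))
    (hy : y ∉ Subgroup.center ↥(P : Subgroup G)) :
    ∃ e : G, e * (B.z₀ : G) * e⁻¹ = B.z₀ ∧ e * (y : G) * e⁻¹ = y * B.z₀ := by
  obtain ⟨e₀, he₀⟩ := B.exists_comm_eq hy B.z₀_mem
  have hzcommG : ∀ q : ↥(P : Subgroup G), (q : G) * (B.z₀ : G) = B.z₀ * q :=
    fun q => congrArg Subtype.val (Subgroup.mem_center_iff.1 B.z₀_mem q)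
  have hzG : (B.z₀ : G) = e₀ * y * (e₀ : G)⁻¹ * (y : G)⁻¹ := by rw [← he₀]; rfl
  refine ⟨e₀, ?_, ?_⟩
  · calc (e₀ : G) * B.z₀ * (e₀ : G)⁻¹ = (B.z₀ * e₀) * (e₀ : G)⁻¹ := by rw [hzcommG e₀]
      _ = B.z₀ := by group
  · calc (e₀ : G) * y * (e₀ : G)⁻¹ = ((e₀ : G) * y * (e₀ : G)⁻¹ * (y : G)⁻¹) * y := by group
      _ = B.z₀ * y := by rw [← hzG]
      _ = y * B.z₀ := (hzcommG y).symm

/-- Three planes with `SL₂(p)` induced force `p ≤ 13`. -/
theorem rv54 (P : Sylow p G) (hE : Cfsg.IsExtraspecial p ↥(P : Subgroup G))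
    (hcard : Nat.card ↥(P : Subgroup G) = p ^ 3) (hexp : Monoid.exponent ↥(P : Subgroup G) = p)
    (A : Fin 3 → Subgroup G) (hA : Function.Injective A) (hAP : ∀ i, A i ≤ (P : Subgroup G))
    (hAcard : ∀ i, Nat.card ↥(A i) = p ^ 2)
    (hSL : ∀ i, ∀ φ : MulAut ↥(A i), orderOf φ = p →
      ∃ g : G, ∀ a : ↥(A i), (φ a : G) = g * (a : G) * g⁻¹) :
    p ≤ 13 := by
  by_contra hlt
  have hp13 : 13 < p := by omega
  have hp7 : 7 < p := by omega
  obtain ⟨B⟩ := exists_esb hE hcard hexp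
  have hex := fun i => plane_exists P B (A i) (hAP i) (hAcard i)
  choose x hxA hxc using hex
  have hx : ∀ i j, i ≠ j → x i * x j ≠ x j * x i := by
    intro i j hij hcomm
    have h1 : (x j : G) ∈ A i :=
      (plane_comm P B (A i) (hAP i) (hAcard i) (x i) (hxA i) (hxc i) (x j)).1 hcomm.symm
    apply hij
    apply hA
    ext g
    constructor
    · intro hg
      have hgP := hAP i hg
      have h2 := (plane_comm P B (A i) (hAP i) (hAcard i) (x j) h1 (hxc j) ⟨g, hgP⟩).2 hg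
      exact (plane_comm P B (A j) (hAP j) (hAcard j) (x j) (hxA j) (hxc j) ⟨g, hgP⟩).1 h2
    · intro hg
      have hgP := hAP j hg
      have h2 := (plane_comm P B (A j) (hAP j) (hAcard j) (x j) (hxA j) (hxc j) ⟨g, hgP⟩).2 hg
      exact (plane_comm P B (A i) (hAP i) (hAcard i) (x j) h1 (hxc j) ⟨g, hgP⟩).1 h2
  have hT : ∀ i, ∃ z ∈ Subgroup.center ↥(P : Subgroup G), z ≠ 1 ∧ ∃ e f : G,
      e * (z : G) * e⁻¹ = z ∧ e * (x i : G) * e⁻¹ = x i * z ∧ f * (x i : G) * f⁻¹ = x i ∧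
      f * (z : G) * f⁻¹ = z * x i := by
    intro i
    obtain ⟨e, he1, he2⟩ := exists_e P B (x i) (hxc i)
    have hzA : (B.z₀ : G) ∈ A i := plane_center P B (A i) (hAP i) (hAcard i) _ B.z₀_mem
    have hAcomm : ∀ a b : ↥(A i), a * b = b * a := fun a b =>
      (IsPGroup.isMulCommutative_of_card_eq_prime_sq (hAcard i)).is_comm.comm a b
    have hind : ∀ c d : ZMod p,
        zp (⟨x i, hxA i⟩ : ↥(A i)) c * zp (⟨B.z₀, hzA⟩ : ↥(A i)) d = 1 → c = 0 ∧ d = 0 := by
      intro c d h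
      have h1 : zp (x i) c * zp B.z₀ d = 1 := by
        apply Subtype.ext
        have h0 := congrArg Subtype.val h
        rw [Subgroup.coe_mul, coe_zp, coe_zp] at h0
        rw [Subgroup.coe_mul, coe_zp, coe_zp]
        exact h0
      have h2 := congrArg B.pi h1
      rw [B.pi_mul, B.pi_zp, B.pi_zp, B.pi_center B.z₀_mem, smul_zero, add_zero,
        B.pi_center (Subgroup.one_mem _)] at h2
      have hc : c = 0 := by
        by_contra hc
        have h3 : B.pi (x i) = 0 := by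
          have h4 := congrArg (fun v => c⁻¹ • v) h2
          simpa [smul_smul, inv_mul_cancel₀ hc] using h4
        exact hxc i (B.pi_eq_zero.1 h3)
      subst hc
      rw [zp_zero, one_mul] at h1
      have hd : d = 0 := zp_inj B.orderOf_z₀ (by rw [h1, zp_zero])
      exact ⟨rfl, hd⟩
    obtain ⟨φ, hφo, hφx, hφz⟩ := exists_transvection hAcomm (hAcard i) ⟨x i, hxA i⟩
      ⟨B.z₀, hzA⟩
      (Subtype.ext (show ((x i : ↥(P : Subgroup G)) : G) ^ p = 1 from
        congrArg (fun t : ↥(P : Subgroup G) => (t : G)) (B.hexp (x i))))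
      (Subtype.ext (show ((B.z₀ : ↥(P : Subgroup G)) : G) ^ p = 1 from
        congrArg (fun t : ↥(P : Subgroup G) => (t : G)) B.z₀_pow)) hind
    obtain ⟨f, hf⟩ := hSL i φ hφo
    refine ⟨B.z₀, B.z₀_mem, B.hne, e, f, he1, he2, ?_, ?_⟩
    · rw [← hf ⟨x i, hxA i⟩, hφx]
    · rw [← hf ⟨B.z₀, hzA⟩, hφz]
      rfl
  have h13 := (core' hp7 P B x hx hxc hT).1 0 1 2 (by decide) (by decide) (by decide)
  omega

end Plane

end Cfsg.Agent.H2.RV
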