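import Mathlib
import Cfsg.Agent.H2.RVG

/-!
# An extraspecial Sylow subgroup of order `p³`, exponent `p`, all of whose nonidentity
elements are conjugate forces `p ≤ 7` (helper2)
-/

set_option autoImplicit false
set_option linter.unusedSectionVars false
set_option linter.unusedVariables false

namespace Cfsg.Agent.H2.RV

open Matrix

section

variable {G : Type*} [Group G] [Finite G] {p : ℕ} [hp : Fact p.Prime]

/-- The two opposite transvections on `⟨y, Z(P)⟩` for a non-central `y`, when all nonidentity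
elements of `P` are conjugate. -/
theorem zef55 (P : Sylow p G) (B : ESB p ↥(P : Subgroup G))
    (hconj : ∀ x y : ↥(P : Subgroup G), x ≠ 1 → y ≠ 1 → ∃ g : G, g * (x : G) * g⁻¹ = (y : G))
    (y : ↥(P : Subgroup G)) (hy : y ∉ Subgroup.center ↥(P : Subgroup G)) :
    ∃ z ∈ Subgroup.center ↥(P : Subgroup G), z ≠ 1 ∧ ∃ e f : G,
        e * (z : G) * e⁻¹ = z ∧ e * (y : G) * e⁻¹ = y * z ∧ f * (y : G) * f⁻¹ = y ∧
        f * (z : G) * f⁻¹ = z * y := by
  have h1 : ∃ e₀ : ↥(P : Subgroup G), e₀ * y ≠ y * e₀ := by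
    by_contra h
    push_neg at h
    exact hy (Subgroup.mem_center_iff.2 h)
  obtain ⟨e₀, he₀⟩ := h1
  obtain ⟨z, hz⟩ : ∃ z : ↥(P : Subgroup G), z = e₀ * y * e₀⁻¹ * y⁻¹ := ⟨_, rfl⟩
  have hzc : z ∈ Subgroup.center ↥(P : Subgroup G) := by rw [hz]; exact B.comm_mem e₀ y
  have hz1 : z ≠ 1 := by
    intro h
    apply he₀
    calc e₀ * y = (e₀ * y * e₀⁻¹ * y⁻¹) * (y * e₀) := by group
      _ = y * e₀ := by rw [← hz, h, one_mul]
  have hzcomm : ∀ q : ↥(P : Subgroup G), q * z = z * q := Subgroup.mem_center_iff.1 hzc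
  have hzcommG : ∀ q : ↥(P : Subgroup G), (q : G) * (z : G) = z * q :=
    fun q => congrArg Subtype.val (hzcomm q)
  have hy1 : y ≠ 1 := by
    rintro rfl
    exact hy (Subgroup.one_mem _)
  have hzG : (z : G) = e₀ * y * (e₀ : G)⁻¹ * (y : G)⁻¹ := by rw [hz]; rfl
  refine ⟨z, hzc, hz1, (e₀ : G), ?_⟩
  obtain ⟨g, hg⟩ := hconj z y hz1 hy1
  have hSK : ((g • P : Sylow p G) : Subgroup G) ≤
      Subgroup.centralizer ({(y : G)} : Set G) := by
    intro q hq
    have hq' : g⁻¹ * q * g ∈ (P : Subgroup G) := mem_sylow_smul.1 hq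
    rw [Subgroup.mem_centralizer_iff]
    intro w hw
    rw [Set.mem_singleton_iff] at hw
    subst hw
    have hc : g⁻¹ * q * g * (z : G) = z * (g⁻¹ * q * g) := hzcommG ⟨_, hq'⟩
    rw [← hg]
    calc g * z * g⁻¹ * q = g * (z * (g⁻¹ * q * g)) * g⁻¹ := by group
      _ = g * ((g⁻¹ * q * g) * z) * g⁻¹ := by rw [← hc]
      _ = q * (g * z * g⁻¹) := by group
  have hRK : Subgroup.zpowers (z : G) ≤ Subgroup.centralizer ({(y : G)} : Set G) := by
    rw [Subgroup.zpowers_le, Subgroup.mem_centralizer_iff]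
    intro w hw
    rw [Set.mem_singleton_iff] at hw
    subst hw
    exact hzcommG y
  have hR : IsPGroup p (Subgroup.zpowers (z : G)) :=
    P.isPGroup'.to_le (Subgroup.zpowers_le.2 z.2)
  obtain ⟨c, hcK, hc⟩ := exists_conj_le_sylow_of_le (g • P) _ _ hSK hR hRK
  have hcz : g⁻¹ * (c * z * c⁻¹) * g ∈ (P : Subgroup G) :=
    mem_sylow_smul.1 (hc _ (Subgroup.mem_zpowers _))
  have hcy : (y : G) * c = c * y := Subgroup.mem_centralizer_iff.1 hcK _ rfl
  obtain ⟨h, hh⟩ : ∃ h : G, h = c⁻¹ * g := ⟨_, rfl⟩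
  have hhz : h * z * h⁻¹ = y := by
    calc h * z * h⁻¹ = c⁻¹ * (g * z * g⁻¹) * c := by rw [hh]; group
      _ = c⁻¹ * (y * c) := by rw [hg]; group
      _ = y := by rw [hcy]; group
  have hz' : h⁻¹ * z * h ∈ (P : Subgroup G) := by
    have e : h⁻¹ * z * h = g⁻¹ * (c * z * c⁻¹) * g := by rw [hh]; group
    rw [e]; exact hcz
  have hz'c : (⟨h⁻¹ * z * h, hz'⟩ : ↥(P : Subgroup G)) ∉
      Subgroup.center ↥(P : Subgroup G) := by
    intro hcen
    obtain ⟨i, hi⟩ := B.exists_zp_of hzc hz1 hcen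
    have hi' : h⁻¹ * (z : G) * h = zp (z : G) i := by
      have h2 := congrArg Subtype.val hi
      rwa [coe_zp] at h2
    have h2 : (z : G) = zp (y : G) i := by
      calc (z : G) = h * (h⁻¹ * z * h) * h⁻¹ := by group
        _ = zp (y : G) i := by rw [hi', zp_conj, hhz]
    have h3 : z = zp y i := Subtype.ext (by rw [coe_zp]; exact h2)
    have hi0 : i ≠ 0 := by
      rintro rfl
      exact hz1 (by rw [h3, zp_zero])
    apply hy
    rw [← zp_zp_inv (B.hexp y) hi0, ← h3]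
    exact zp_mem hzc _
  obtain ⟨f', hf'⟩ := B.exists_comm_eq hz'c hzc
  have hf'G : (f' : G) * (h⁻¹ * z * h) * (f' : G)⁻¹ * (h⁻¹ * z * h)⁻¹ = z :=
    congrArg Subtype.val hf'
  have hyz : h⁻¹ * y * h = z := by rw [← hhz]; group
  refine ⟨h * f' * h⁻¹, ?_, ?_, ?_, ?_⟩
  · calc (e₀ : G) * z * (e₀ : G)⁻¹ = (z * e₀) * (e₀ : G)⁻¹ := by rw [hzcommG e₀]
      _ = z := by group
  · calc (e₀ : G) * y * (e₀ : G)⁻¹ = ((e₀ : G) * y * (e₀ : G)⁻¹ * (y : G)⁻¹) * y := by group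
      _ = z * y := by rw [← hzG]
      _ = y * z := (hzcommG y).symm
  · calc h * f' * h⁻¹ * y * (h * f' * h⁻¹)⁻¹
        = h * (f' * (h⁻¹ * y * h) * (f' : G)⁻¹) * h⁻¹ := by group
      _ = h * ((z * f') * (f' : G)⁻¹) * h⁻¹ := by rw [hyz, hzcommG f']
      _ = h * z * h⁻¹ := by group
      _ = y := hhz
  · calc h * f' * h⁻¹ * z * (h * f' * h⁻¹)⁻¹
        = h * (f' * (h⁻¹ * z * h) * (f' : G)⁻¹ * (h⁻¹ * z * h)⁻¹) * h⁻¹ * z := by group
      _ = h * z * h⁻¹ * z := by rw [hf'G]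
      _ = y * z := by rw [hhz]
      _ = z * y := hzcommG y

/-- If all nonidentity elements of an extraspecial Sylow `p`-subgroup of order `p³` and
exponent `p` are conjugate, then `p ≤ 7`. -/
theorem rv55 (P : Sylow p G) (hE : Cfsg.IsExtraspecial p ↥(P : Subgroup G))
    (hcard : Nat.card ↥(P : Subgroup G) = p ^ 3) (hexp : Monoid.exponent ↥(P : Subgroup G) = p)
    (hconj : ∀ x y : ↥(P : Subgroup G), x ≠ 1 → y ≠ 1 → ∃ g : G, g * (x : G) * g⁻¹ = (y : G)) :
    p ≤ 7 := by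
  by_contra hlt
  have hp7 : 7 < p := by omega
  obtain ⟨B⟩ := exists_esb hE hcard hexp
  have hne : NeZero p := ⟨hp.out.ne_zero⟩
  obtain ⟨x, hxdef⟩ : ∃ x : Fin 7 → ↥(P : Subgroup G),
      ∀ j, x j = B.x₀ * zp B.w₀ ((j : ℕ) : ZMod p) := ⟨_, fun _ => rfl⟩
  have hpi : ∀ j, B.pi (x j) = ![1, ((j : ℕ) : ZMod p)] := by
    intro j
    rw [hxdef, B.pi_mul, B.pi_zp, B.pi_x₀, B.pi_w₀]
    ext i
    fin_cases i <;> simp
  have hx' : ∀ j, x j ∉ Subgroup.center ↥(P : Subgroup G) := by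
    intro j hj
    have h1 := B.pi_center hj
    rw [hpi] at h1
    have h2 := congrFun h1 0
    simp at h2
  have hx : ∀ i j, i ≠ j → x i * x j ≠ x j * x i := by
    intro i j hij hcomm
    have h := B.wd_of_comm hcomm
    rw [hpi, hpi] at h
    simp only [wd, Matrix.cons_val_zero, Matrix.cons_val_one, one_mul, mul_one] at h
    have h2 : ((j : ℕ) : ZMod p) = ((i : ℕ) : ZMod p) := sub_eq_zero.1 h
    have h3 := congrArg ZMod.val h2
    rw [ZMod.val_natCast_of_lt (by omega), ZMod.val_natCast_of_lt (by omega)] at h3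
    exact hij (Fin.ext h3.symm)
  exact (core' hp7 P B x hx hx' (fun j => zef55 P B hconj (x j) (hx' j))).2 id
    Function.injective_id

end

end Cfsg.Agent.H2.RV
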